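import Cfsg.Agent.Lib.QW.Gen
import Cfsg.Agent.Lib.Rk2.Three
import Cfsg.Agent.Lib.Fusion.Transfer
import Cfsg.Agent.Lib.Inv.WreathedSub

/-!
# A weakly closed generalized quaternion subgroup: the action on it and the basic fusion facts

`R = ⟨a, b⟩` has order `2 m`, `m = 2 ^ (n + 3)`; `z = a ^ (m / 2)`, `i = a ^ (m / 4)`.
-/

set_option autoImplicit false
set_option linter.unusedSectionVars false

namespace Cfsg.Lib.QW

open Subgroup Cfsg.Lib.Fusion Cfsg.Lib.Transfer Cfsg.Lib.Rk2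
open Cfsg.FusionSystem hiding inv_mem
open Cfsg.Lib.Inv hiding conj_mem_of_mem_normalizer

theorem dvd_or_of_sq {k : ℕ} {e : ℤ} (h : (2 : ℤ) ^ (k + 1) ∣ e * e - 1) :
    (2 : ℤ) ^ k ∣ e - 1 ∨ (2 : ℤ) ^ k ∣ e + 1 := by
  rcases k with _ | k
  · simp
  obtain ⟨u, rfl | rfl⟩ := Int.even_or_odd' e
  · have := (dvd_pow_self (2 : ℤ) (by omega : k + 1 + 1 ≠ 0)).trans h
    have h2 : (2 : ℤ) ∣ 2 * u * (2 * u) := ⟨u * (2 * u), by ring⟩
    omega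
  have h1 : (2 : ℤ) ^ k ∣ u * (u + 1) := by
    refine (mul_dvd_mul_iff_left (by norm_num : (4 : ℤ) ≠ 0)).1 ?_
    rwa [show (4 : ℤ) * 2 ^ k = 2 ^ (k + 1 + 1) by ring,
      show 4 * (u * (u + 1)) = (2 * u + 1) * (2 * u + 1) - 1 by ring]
  have c : ∀ v : ℤ, Odd v → IsCoprime ((2 : ℤ) ^ k) v := fun v hv =>
    (Int.isCoprime_two_left.2 hv).pow_left
  rcases Int.even_or_odd u with hu | hu
  · obtain ⟨c, hc⟩ := (c _ hu.add_one).dvd_of_dvd_mul_right h1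
    exact .inl ⟨c, by rw [hc]; ring⟩
  · obtain ⟨c, hc⟩ := (c _ hu).dvd_of_dvd_mul_left h1
    exact .inr ⟨c, by rw [pow_succ, mul_right_comm, ← hc]; ring⟩

theorem dvd_pow_sub_one {e : ℤ} (he : Odd e) (k : ℕ) : (2 : ℤ) ^ (k + 3) ∣ e ^ 2 ^ (k + 1) - 1 := by
  induction k with
  | zero => simpa [sq] using Int.eight_dvd_sq_sub_one_of_odd he
  | succ k ih =>
    rw [pow_succ 2 (k + 1), pow_mul, sq_sub_sq' , show k + 1 + 3 = k + 3 + 1 from rfl, pow_succ]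
    exact mul_dvd_mul ih (he.pow.add_one).two_dvd
where sq_sub_sq' {x : ℤ} : x ^ 2 - 1 = (x - 1) * (x + 1) := by ring

theorem dvd_of_dvd_mul_odd {k : ℕ} {u v : ℤ} (hv : Odd v) (h : (2 : ℤ) ^ k ∣ u * v) : (2 : ℤ) ^ k ∣ u :=
  (Int.isCoprime_two_left.2 hv).pow_left.dvd_of_dvd_mul_right h

variable {Ω : Type*} [Group Ω] {S P Q R : Subgroup Ω} {F : FusionSystem S} {f : Ω → Ω}
  {a b g g' t : Ω} {n : ℕ} {e j e' j' : ℤ}

theorem exists_inv_of_ne (hS : IsPGroup 2 S) (hg : g ∈ S) (h1 : g ≠ 1) :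
    ∃ k : ℕ, g ^ 2 ^ k ≠ 1 ∧ g ^ 2 ^ k * g ^ 2 ^ k = 1 := by
  obtain ⟨k, h2, h3⟩ := exists_inv_pow hS (g := ⟨g, hg⟩) fun e => h1 (congrArg Subtype.val e)
  exact ⟨k, fun e => h2 (Subtype.ext e), congrArg Subtype.val h3⟩

theorem mem_zp_of_mul_self (ht : t * t = 1) (hg : g ∈ zpowers t) : g = 1 ∨ g = t := by
  obtain ⟨k, rfl⟩ := hg
  have h2 : t ^ (2 : ℤ) = 1 := by rw [zpow_two, ht]
  obtain ⟨l, rfl | rfl⟩ := Int.even_or_odd' k
  · exact .inl (by simp only [zpow_mul, h2, one_zpow])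
  · exact .inr (by simp only [zpow_add, zpow_mul, h2, one_zpow, zpow_one, one_mul])

/-- The fixed points of a map multiplicative on `P`. -/
def Fx (h : HomOn P f) : Subgroup Ω where
  carrier := {x | x ∈ P ∧ f x = x}
  mul_mem' := fun hx hy => ⟨mul_mem hx.1 hy.1, by rw [h _ hx.1 _ hy.1, hx.2, hy.2]⟩
  one_mem' := ⟨one_mem _, h.map_one⟩
  inv_mem' := fun hx => ⟨inv_mem hx.1, by rw [h.map_inv hx.1, hx.2]⟩

/-- `g` acts by `a ↦ a ^ e`, `b ↦ a ^ j b`. -/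
def Ac (a b g : Ω) (e j : ℤ) : Prop := g * a * g⁻¹ = a ^ e ∧ g * b * g⁻¹ = a ^ j * b

theorem Ac.zpow (h : Ac a b g e j) (k : ℤ) : g * a ^ k * g⁻¹ = a ^ (e * k) := by
  rw [← conj_zpow, h.1, ← zpow_mul]

theorem Ac.refl (h : Ac a b g e j) (k : ℤ) : g * (a ^ k * b) * g⁻¹ = a ^ (e * k + j) * b := by
  rw [← conj_mul, h.zpow, h.2, zpow_add, mul_assoc]

theorem Ac.mul (h : Ac a b g e j) (h' : Ac a b g' e' j') : Ac a b (g * g') (e * e') (e * j' + j) :=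
  ⟨by rw [← h.zpow, ← h'.1]; group, by rw [← h.refl, ← h'.2]; group⟩

theorem Ac.cb (h : Ac a b g e j) : b * g * b⁻¹ = a ^ (-j) * g := by
  calc b * g * b⁻¹ = b * (g * b * g⁻¹)⁻¹ * g := by group
    _ = _ := by rw [h.2]; group

theorem Ac.comm_of (h : Ac a b g e j) (h' : Ac a b g' e' j') (h1 : a ^ e = a ^ e') (h2 : a ^ j = a ^ j') :
    g⁻¹ * g' * a = a * (g⁻¹ * g') ∧ g⁻¹ * g' * b = b * (g⁻¹ * g') := by
  constructor <;> rw [← mul_inv_eq_iff_eq_mul]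
  · calc _ = g⁻¹ * (g' * a * g'⁻¹) * g := by group
      _ = _ := by rw [h'.1, ← h1, ← h.1]; group
  · calc _ = g⁻¹ * (g' * b * g'⁻¹) * g := by group
      _ = _ := by rw [h'.2, ← h2, ← h.2]; group

theorem Ac.comm_of' (h : Ac a b g e j) (h' : g' * a * g'⁻¹ = a ^ e') (h1 : a ^ e = a ^ e') :
    g⁻¹ * g' * a = a * (g⁻¹ * g') := by
  rw [← mul_inv_eq_iff_eq_mul]
  calc _ = g⁻¹ * (g' * a * g'⁻¹) * g := by group
    _ = _ := by rw [h', ← h1, ← h.1]; group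

theorem conj_pow_zpow (h : g * a * g⁻¹ = a ^ e) (k : ℕ) : g ^ k * a * (g ^ k)⁻¹ = a ^ e ^ k := by
  induction k with
  | zero => simp
  | succ k ih =>
    calc _ = g * (g ^ k * a * (g ^ k)⁻¹) * g⁻¹ := by rw [pow_succ']; group
      _ = _ := by rw [ih, ← conj_zpow, h, ← zpow_mul, pow_succ']

/-- The centralizer in `S` of an element. -/
abbrev Cn (S : Subgroup Ω) (t : Ω) : Subgroup Ω := centralizerIn S (zpowers t)

theorem mem_Cn : g ∈ Cn S t ↔ g ∈ S ∧ g * t = t * g :=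
  and_congr_right fun _ => ⟨fun h => (h t (mem_zpowers t)).symm, by
    rintro h _ ⟨k, rfl⟩
    exact ((Commute.zpow_right h k).eq).symm⟩

theorem Mor.mem_Cn (hf : Mor F P f) (ht : t ∈ P) (hg : g ∈ P) (h : g * t = t * g) :
    f g ∈ Cn S (f t) := QW.mem_Cn.2 ⟨hf.mem hg, by
  rw [← hf.homOn.map_mul hg ht, h, hf.homOn.map_mul ht hg]⟩

local notation "𝐳" => a ^ ((2 : ℤ) ^ (n + 2))
local notation "𝐢" => a ^ ((2 : ℤ) ^ (n + 1))

/-- An element inverting `a` and interchanging the two classes of reflections. -/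
def Dt (a b g : Ω) : Prop := g * a * g⁻¹ = a⁻¹ ∧ ∃ j : ℤ, Odd j ∧ g * b * g⁻¹ = a ^ j * b

section Q
variable (h : MC R a b (n + 2) 0 1)
include h

theorem q_ac_b : Ac a b b (-1) 0 := ⟨by simpa using h.conj, by simp⟩

theorem q_b_conj (k : ℤ) : b * a ^ k * b⁻¹ = a ^ (-k) := by rw [(q_ac_b h).zpow, neg_one_mul]

theorem q_bb : b * b = 𝐳 := by simpa using h.sq

theorem q_refl_sq (k : ℤ) : a ^ k * b * (a ^ k * b) = 𝐳 := by simpa using h.refl_sq k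

theorem q_ac_a (k : ℤ) : Ac a b (a ^ k) 1 (2 * k) :=
  ⟨by group, by simpa using h.zpow_conj_refl k 0⟩

theorem q_odd (hg : g * a * g⁻¹ = a ^ e) : Odd e := by
  refine Int.not_even_iff_odd.1 fun ⟨u, hu⟩ => conj_ne_one (g := g) h.z_ne_one ?_
  rw [← conj_zpow, hg, ← zpow_mul, h.zpow_eq_one_iff]
  exact ⟨u, by rw [hu]; ring⟩

theorem q_a_ne_inv (k : ℤ) (hk : Odd k) : a ^ k ≠ a ^ (-k) := fun e => by
  have h1 := dvd_of_dvd_mul_odd (u := 2) hk (by simpa [two_mul] using h.zpow_eq_iff.1 e)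
  have := Int.le_of_dvd two_pos h1
  have : (2 : ℤ) ^ (n + 2 + 1) = 2 ^ n * 8 := by ring
  have : (0 : ℤ) < 2 ^ n := by positivity
  omega

theorem q_pow_comm (hg : g * a * g⁻¹ = a ^ e) : g ^ 2 ^ (n + 1) * a = a * g ^ 2 ^ (n + 1) := by
  rw [← mul_inv_eq_iff_eq_mul, conj_pow_zpow hg]
  exact (h.zpow_eq_iff.2 (dvd_pow_sub_one (q_odd h hg) n)).trans (zpow_one a)

theorem q_inv_dvd (hg : g * a * g⁻¹ = a ^ e) (h2 : g * g = 1) :
    (2 : ℤ) ^ (n + 2) ∣ e - 1 ∨ (2 : ℤ) ^ (n + 2) ∣ e + 1 := by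
  have := conj_pow_zpow hg 2
  rw [sq, h2, one_mul, inv_one, mul_one, sq] at this
  exact dvd_or_of_sq (h.zpow_eq_iff.1 (this.symm.trans (zpow_one a).symm))

/-- An involution which is a square centralizes `a²`. -/
theorem q_sq_comm (hg : g * a * g⁻¹ = a ^ e) (h2 : g * g * (g * g) = 1) :
    g * g * a ^ (2 : ℤ) = a ^ (2 : ℤ) * (g * g) := by
  have h1 := conj_pow_zpow hg 2
  rw [sq] at h1
  rw [← mul_inv_eq_iff_eq_mul, ← conj_zpow, h1, ← zpow_mul, h.zpow_eq_iff]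
  rcases q_inv_dvd h h1 h2 with ⟨c, hc⟩ | ⟨c, hc⟩
  · exact ⟨c, by linear_combination 2 * hc⟩
  · obtain ⟨u, hu⟩ := Int.eight_dvd_sq_sub_one_of_odd (q_odd h hg)
    have : (2 : ℤ) ^ (n + 2) * c = 4 * (2 ^ n * c) := by ring
    omega

variable [Finite Ω]

theorem q_cent (h1 : g * a = a * g) (h2 : g * b = b * g) {r : Ω} (hr : r ∈ R) : r * g = g * r :=
  mem_centralizer_singleton_iff.1 (h.le_of_mem (K := centralizer {g})
    (mem_centralizer_singleton_iff.2 h1.symm) (mem_centralizer_singleton_iff.2 h2.symm) hr)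

theorem q_conj_a (hg : g ∈ normalizer (R : Set Ω)) : ∃ e : ℤ, g * a * g⁻¹ = a ^ e := by
  obtain ⟨e, he | he⟩ := h.mem_iff.1 (conj_mem_of_mem_normalizer hg h.a_mem)
  · exact ⟨e, he⟩
  have h1 := h.refl_pow_four e
  rw [← he, conj_pow, conj_eq_one_iff, ← zpow_natCast, h.zpow_eq_one_iff] at h1
  have := Int.le_of_dvd (by norm_num) h1
  have : (2 : ℤ) ^ (n + 2 + 1) = 2 ^ n * 8 := by ring
  have : (0 : ℤ) < 2 ^ n := by positivity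
  omega

theorem exists_ac (hg : g ∈ normalizer (R : Set Ω)) : ∃ e j, Ac a b g e j := by
  obtain ⟨e, he⟩ := q_conj_a h hg
  obtain ⟨e', he'⟩ := q_conj_a h (inv_mem hg)
  obtain ⟨j, hj | hj⟩ := h.mem_iff.1 (conj_mem_of_mem_normalizer hg h.b_mem)
  · refine absurd ⟨e' * j, ?_⟩ h.nmem
    simp only [zpow_mul, ← he', conj_zpow, ← hj]
    group
  · exact ⟨e, j, he, hj⟩

theorem q_conj_z (hg : g ∈ normalizer (R : Set Ω)) : g * 𝐳 = 𝐳 * g :=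
  mul_inv_eq_iff_eq_mul.1 (h.quat_eq_z (conj_mem_of_mem_normalizer hg (h.zpow_mem _))
    (conj_ne_one h.z_ne_one) (by rw [conj_mul, h.z_mul_self]; simp))

theorem q_conj_i (hg : g ∈ normalizer (R : Set Ω)) : g * 𝐢 * g⁻¹ = 𝐢 ∨ g * 𝐢 * g⁻¹ = 𝐢⁻¹ := by
  obtain ⟨e, he⟩ := q_conj_a h hg
  refine h.eq_w ⟨e * _, by rw [← conj_zpow, he, ← zpow_mul]⟩ (by rw [conj_mul]; exact conj_ne_one h.w_sq_ne) ?_
  rw [conj_pow, h.w_pow_four]; simp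

theorem q_i_inv : 𝐢⁻¹ = 𝐳 * 𝐢 := by
  rw [← zpow_neg, ← zpow_add]; exact h.zpow_eq_of (-1) (by ring)

/-- An involution normalizing `R` centralizes an element of order 4 of `R` or is of type `Dt`. -/
theorem q_types (hg : g ∈ normalizer (R : Set Ω)) (h2 : g * g = 1) :
    (∃ r ∈ R, r * r = 𝐳 ∧ r * g = g * r) ∨ Dt a b g := by
  obtain ⟨e, j, he⟩ := exists_ac h hg
  rcases q_inv_dvd h he.1 h2 with ⟨c, hc⟩ | ⟨c, hc⟩
  · refine .inl ⟨_, h.zpow_mem _, h.w_mul_self, (mul_inv_eq_iff_eq_mul.1 ?_).symm⟩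
    rw [he.zpow]
    exact h.zpow_eq_of (2 ^ n * c) (by linear_combination 2 ^ (n + 1) * hc)
  have h3 := (he.mul he).2
  rw [h2, one_mul, inv_one, mul_one, right_eq_mul, h.zpow_eq_one_iff] at h3
  rcases Int.even_or_odd j with ⟨l, hl⟩ | hj
  · obtain ⟨u, v, huv⟩ : IsCoprime ((2 : ℤ) ^ (n + 2)) (1 - 2 ^ (n + 1) * c) :=
      (Int.isCoprime_two_left.2 ⟨-(2 ^ n * c), by ring⟩).pow_left
    refine .inl ⟨_, h.refl_mem (l * v), q_refl_sq h _, (mul_inv_eq_iff_eq_mul.1 ?_).symm⟩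
    rw [he.refl]
    congr 1
    exact h.zpow_eq_of (l * u) (by linear_combination (l * v) * hc + hl - 2 * l * huv)
  · refine .inr ⟨?_, j, hj, he.2⟩
    rw [he.1, ← zpow_neg_one, h.zpow_eq_iff, sub_neg_eq_add]
    exact dvd_of_dvd_mul_odd hj (by convert h3 using 1; ring)

theorem Dt.not_comm (hg : Dt a b g) {r : Ω} (hr : r ∈ R) (h1 : r * r = 𝐳) : r * g ≠ g * r := fun e => by
  obtain ⟨h2, j, hj, h3⟩ := hg
  have he : Ac a b g (-1) j := ⟨by simpa using h2, h3⟩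
  replace e := mul_inv_eq_iff_eq_mul.2 e.symm
  obtain ⟨k, rfl | rfl⟩ := h.mem_iff.1 hr
  · rw [he.zpow, neg_one_mul, zpow_neg, inv_eq_iff_mul_eq_one, h1] at e
    exact h.z_ne_one e
  · rw [he.refl, mul_left_inj, h.zpow_eq_iff] at e
    have := (dvd_pow_self (2 : ℤ) (by omega : n + 2 + 1 ≠ 0)).trans e
    obtain ⟨l, rfl⟩ := hj
    omega

/-- Elements of odd order normalizing `R` centralize it. -/
theorem q_odd_cent (hg : g ∈ normalizer (R : Set Ω)) (ho : Odd (orderOf g)) :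
    g ∈ centralizer (R : Set Ω) := by
  by_contra hc
  have h1 := h.card_eq
  have : (2 : ℕ) ^ (n + 2 + 2) = 2 ^ n * 16 := by ring
  have : 0 < (2 : ℕ) ^ n := by positivity
  rcases h.odd_aut le_rfl hg ho hc with e | e
  · have := e.card_four; omega
  · have := q8_card e; omega

end Q

/-- The hypotheses on a weakly closed quaternion subgroup `R = ⟨a, b⟩`. -/
structure Hy (F : FusionSystem S) (R : Subgroup Ω) (a b : Ω) (n : ℕ) : Prop where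
  sat : Sat F 2
  mc : MC R a b (n + 2) 0 1
  le : R ≤ S
  wc : ∀ f, Mor F R f → ∀ r ∈ R, f r ∈ R
  sc : ∀ y ∈ S, (∀ r ∈ R, r * y = y * r) → y * y = 1 → y ≠ 1 → ∀ P f, Mor F P f → y ∈ P →
    f y = y → ∀ r ∈ P, r ∈ R → f r ∈ R
  foc : S ≤ F.focalSubgroup
  mv : ∃ t, F.IsConjElt (a ^ ((2 : ℤ) ^ (n + 2))) t ∧ t ≠ a ^ ((2 : ℤ) ^ (n + 2))

theorem cj_symm {x y : Ω} (h : F.IsConjElt x y) : F.IsConjElt y x := by
  obtain ⟨f, hf, rfl⟩ := isConjElt_iff.1 h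
  obtain ⟨g, hg, e, -⟩ := hf.inv
  simpa only [e x (mem_zpowers x)] using hg.isConjElt (mem_im_of_mem f (mem_zpowers x))

theorem cj_mor {x y : Ω} (h : F.IsConjElt x y) (hf : Mor F P f) (hy : y ∈ P) :
    F.IsConjElt x (f y) := by
  obtain ⟨g, hg, rfl⟩ := isConjElt_iff.1 h
  have : zpowers x ≤ hg.homOn.pre P := zpowers_le.2 ⟨mem_zpowers x, hy⟩
  exact (hg.comp hf fun _ hx => (this hx).2).isConjElt (mem_zpowers x)

theorem cj_conj {x y s : Ω} (h : F.IsConjElt x y) (hy : y ∈ S) (hs : s ∈ S) :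
    F.IsConjElt x (s * y * s⁻¹) := cj_mor (f := fun x => s * x * s⁻¹) h (mor_conj F le_rfl hs) hy

namespace Hy
variable (h : Hy F R a b n)
include h

theorem a_mem : a ∈ S := h.le h.mc.a_mem
theorem b_mem : b ∈ S := h.le h.mc.b_mem
theorem z_mem : 𝐳 ∈ S := zpow_mem h.a_mem _

theorem iso {Ω' : Type*} [Group Ω'] [Finite S] {S' : Subgroup Ω'} {F' : FusionSystem S'}
    {u : Ω → Ω'} (e : Iso F F' u) : Hy F' (im u R) (u a) (u b) n := by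
  have hz : u 𝐳 = u a ^ ((2 : ℤ) ^ (n + 2)) := e.hom.map_zpow h.a_mem _
  refine ⟨e.sat h.sat, ⟨?_, fun ⟨k, hk⟩ => h.mc.nmem ⟨k, e.inj (zpow_mem h.a_mem k) h.b_mem
      ((e.hom.map_zpow h.a_mem k).trans hk)⟩, ?_, ?_, ?_, h.mc.four⟩, e.im_le h.le, fun f hf y hy => ?_,
    fun y hy h1 h2 h3 P f hf h4 h5 r h6 h7 => ?_, ?_, ?_⟩
  · rw [← h.mc.ord, ← Nat.card_zpowers, ← Nat.card_zpowers, ← e.hom.im_zpowers h.a_mem,
      e.card_im (zpowers_le.2 h.a_mem)]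
  · rw [← e.hom.im_zpowers h.a_mem, ← e.hom.im_zpowers h.b_mem,
      ← e.im_sup (zpowers_le.2 h.a_mem) (zpowers_le.2 h.b_mem), h.mc.sup]
  · rw [← e.hom.map_conj h.b_mem h.a_mem, h.mc.conj, e.hom.map_zpow h.a_mem]
  · rw [← e.hom.map_mul h.b_mem h.b_mem, h.mc.sq, e.hom.map_zpow h.a_mem]
  · obtain ⟨g, hg, e1⟩ := e.up h.le hf
    obtain ⟨x, hx, rfl⟩ := (e.hom.mono h.le).mem_im.1 hy
    exact e1 x hx ▸ mem_im_of_mem u (h.wc g hg x hx)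
  · obtain ⟨P, hP, rfl⟩ := e.exists_im hf.le
    obtain ⟨g, hg, e1⟩ := e.up hP hf
    obtain ⟨y, h8, rfl⟩ := (e.hom.mono hP).mem_im.1 h4
    obtain ⟨r, h9, rfl⟩ := (e.hom.mono hP).mem_im.1 h6
    have yS := hP h8
    refine e1 r h9 ▸ mem_im_of_mem u (h.sc y yS (fun s hs => e.inj (mul_mem (h.le hs) yS)
      (mul_mem yS (h.le hs)) ?_) (e.inj (mul_mem yS yS) (one_mem _) ?_)
      (fun e' => h3 (e' ▸ e.hom.map_one)) P g hg h8 (e.inj (hg.mem h8) yS ((e1 y h8).symm.trans h5))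
      r h9 ((e.mem_im_iff h.le (hP h9)).1 h7))
    · rw [e.hom.map_mul (h.le hs) yS, e.hom.map_mul yS (h.le hs), h1 _ (mem_im_of_mem u hs)]
    · rw [e.hom.map_mul yS yS, h2, e.hom.map_one]
  · rw [← e.im_focal, ← e.im_eq]
    exact im_mono u h.foc
  · obtain ⟨t, h1, h2⟩ := h.mv
    obtain ⟨f, hf, rfl⟩ := isConjElt_iff.1 h1
    obtain ⟨g, hg, e1⟩ := e.down hf
    refine ⟨_, hz ▸ hg.isConjElt (mem_im_of_mem u (mem_zpowers _)), fun e2 => h2 ?_⟩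
    exact e.inj (hf.mem (mem_zpowers _)) h.z_mem ((e1 _ (mem_zpowers _)).symm.trans (hz ▸ e2))

variable [Finite Ω]

theorem norm : S ≤ normalizer (R : Set Ω) := fun _ hs =>
  mem_normalizer_of_conj_mem (h.wc _ (mor_conj F h.le hs))

theorem ac (hg : g ∈ S) : ∃ e j, Ac a b g e j := exists_ac h.mc (h.norm hg)

theorem z_comm (hg : g ∈ S) : g * 𝐳 = 𝐳 * g := q_conj_z h.mc (h.norm hg)

theorem fix_mem (hf : Mor F P f) (hz : 𝐳 ∈ P) (e : f 𝐳 = 𝐳) {r : Ω} (hr : r ∈ P) (hR : r ∈ R) :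
    f r ∈ R :=
  h.sc _ h.z_mem (fun _ hr => h.z_comm (h.le hr)) h.mc.z_mul_self h.mc.z_ne_one P f hf hz e r hr hR

theorem cj_z : F.IsConjElt 𝐳 𝐳 := (mor_id F le_rfl).isConjElt h.z_mem

theorem cj_inv (ht : F.IsConjElt 𝐳 t) : t ∈ S ∧ t * t = 1 ∧ t ≠ 1 := by
  obtain ⟨f, hf, rfl⟩ := isConjElt_iff.1 ht
  have := mem_zpowers 𝐳
  exact ⟨hf.mem this, by rw [← hf.homOn.map_mul this this, h.mc.z_mul_self, hf.homOn.map_one],
    fun e => h.mc.z_ne_one (hf.injOn this (one_mem _) (e.trans hf.homOn.map_one.symm))⟩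

theorem fc_z : F.IsFullyCentralized (zpowers 𝐳) :=
  fullyCentralized_of_central (zpowers_le.2 h.z_mem) fun _ hs => (mem_Cn.2 ⟨hs, h.z_comm hs⟩).2

theorem self_mem (ht : F.IsConjElt 𝐳 t) : t ∈ Cn S t := mem_Cn.2 ⟨(h.cj_inv ht).1, rfl⟩

theorem z_mem_Cn (ht : t ∈ S) : 𝐳 ∈ Cn S t := mem_Cn.2 ⟨h.z_mem, (h.z_comm ht).symm⟩

/-- Every conjugate of `z` is carried to `z` by a map defined on its centralizer. -/
theorem ext (ht : F.IsConjElt 𝐳 t) : ∃ φ, Mor F (Cn S t) φ ∧ φ t = 𝐳 := by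
  obtain ⟨f, hf, e⟩ := isConjElt_iff.1 (cj_symm ht)
  obtain ⟨g, hg, e'⟩ := h.sat.exists_centric_ext hf
    (by rw [hf.homOn.im_zpowers (mem_zpowers t), e]; exact h.fc_z)
  exact ⟨g, hg.mono le_sup_right, (e' t (mem_zpowers t)).trans e⟩

theorem eq_z_of_cent (ht : F.IsConjElt 𝐳 t) (hc : ∀ r ∈ R, r * t = t * r) : t = 𝐳 := by
  obtain ⟨φ, h1, h2⟩ := h.ext ht
  have h3 : R ≤ Cn S t := fun r hr => mem_Cn.2 ⟨h.le hr, hc r hr⟩
  have hz := h.mc.zpow_mem ((2 : ℤ) ^ (n + 2))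
  obtain ⟨-, h4, h5⟩ := h.cj_inv (cj_mor h.cj_z h1 (h3 hz))
  exact h1.injOn (h.self_mem ht) (h3 hz)
    (h2.trans (h.mc.quat_eq_z (h.wc _ (h1.mono h3) _ hz) h5 h4).symm)

theorem ext_ne (ht : F.IsConjElt 𝐳 t) (h1 : t ≠ 𝐳) {φ : Ω → Ω} (h2 : Mor F (Cn S t) φ)
    (h3 : φ t = 𝐳) : φ 𝐳 ≠ 𝐳 := fun e =>
  h1 (h2.injOn (h.self_mem ht) (h.z_mem_Cn (h.cj_inv ht).1) (h3.trans e.symm))

/-- Either all conjugates of `z` other than `z` have type `Dt` or one of them centralizes `a`. -/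
theorem dich : (∀ t, F.IsConjElt 𝐳 t → t ≠ 𝐳 → Dt a b t) ∨
    ∃ t, F.IsConjElt 𝐳 t ∧ t ≠ 𝐳 ∧ a * t = t * a := by
  refine or_iff_not_imp_left.2 fun H => ?_
  push Not at H
  obtain ⟨t, h1, h2, h3⟩ := H
  obtain ⟨r, h4, h5, h6⟩ := (q_types h.mc (h.norm (h.cj_inv h1).1) (h.cj_inv h1).2.1).resolve_right h3
  obtain ⟨φ, h7, h8⟩ := h.ext h1
  have h9 : r ∈ Cn S t := mem_Cn.2 ⟨h.le h4, h6⟩
  have e1 := cj_mor h.cj_z h7 (h.z_mem_Cn (h.cj_inv h1).1)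
  have e2 := h.ext_ne h1 h2 h7 h8
  have e3 : φ 𝐳 = φ r * φ r := by rw [← h5, h7.homOn.map_mul h9 h9]
  obtain ⟨e, -, e4, -⟩ := h.ac (h7.mem h9)
  have e5 : a ^ (2 : ℤ) ∈ Cn S (φ 𝐳) := mem_Cn.2 ⟨zpow_mem h.a_mem _,
    e3 ▸ (q_sq_comm h.mc e4 (e3 ▸ (h.cj_inv e1).2.1)).symm⟩
  obtain ⟨ψ, e6, e7⟩ := h.ext e1
  obtain ⟨e', -, e8, -⟩ := h.ac (e6.mem e5)
  refine ⟨_, cj_mor h.cj_z e6 (h.z_mem_Cn (h.cj_inv e1).1), h.ext_ne e1 e2 e6 e7, ?_⟩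
  rw [show 𝐳 = (a ^ (2 : ℤ)) ^ 2 ^ (n + 1) by rw [← zpow_natCast, ← zpow_mul]; push_cast; ring_nf,
    e6.homOn.map_pow e5]
  exact (q_pow_comm h.mc e8).symm

end Hy

end Cfsg.Lib.QW
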