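import Cfsg.Agent.Lib.QW.QS

/-!
# A conjugate of `z` centralizes `a`: the structure of `S` and generation of the system
-/

set_option autoImplicit false
set_option linter.unusedSectionVars false

namespace Cfsg.Lib.QW

open Subgroup Cfsg.Lib.Fusion Cfsg.Lib.Transfer Cfsg.Lib.Rk2
open Cfsg.FusionSystem hiding inv_mem
open Cfsg.Lib.Inv hiding conj_mem_of_mem_normalizer

variable {Ω : Type*} [Group Ω] [Finite Ω] {S P R : Subgroup Ω} {F : FusionSystem S} {σ : Ω → Ω}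
  {a b c f g s t x y : Ω} {n : ℕ} {e j p q : ℤ}

local notation "𝐳" => a ^ ((2 : ℤ) ^ (n + 2))
local notation "𝐢" => a ^ ((2 : ℤ) ^ (n + 1))
local notation "𝐭" => x ^ ((2 : ℤ) ^ (n + 2))

/-- The data of case A. -/
structure CA (F : FusionSystem S) (R : Subgroup Ω) (a b : Ω) (n : ℕ) (x : Ω) (σ : Ω → Ω) : Prop
    extends Hy F R a b n where
  xS : x ∈ S
  ord : orderOf x = 2 ^ (n + 3)
  comm : a * x = x * a
  disj : ∀ y ∈ R, y ∈ zpowers x → y = 1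
  bx : b * x * b⁻¹ = a * x
  mor : Mor F (Cn S (x ^ ((2 : ℤ) ^ (n + 2)))) σ
  sa : σ a = a * x
  sx : σ x = x⁻¹
  sg : ∀ g ∈ Cn S (x ^ ((2 : ℤ) ^ (n + 2))), ∃ k : ℤ, σ g = x ^ k * g

theorem zpow_odd_of_mul_self (ht : t * t = 1) (hj : Odd j) : t ^ j = t := by
  obtain ⟨k, rfl⟩ := hj
  rw [zpow_add, zpow_mul, zpow_two, ht, one_zpow, one_mul, zpow_one]

theorem Hy.odd_of (h : Hy F R a b n) (h1 : s * a = a * s) (h2 : b * s * b⁻¹ = a ^ j * s)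
    (h3 : F.IsConjElt 𝐳 (s ^ ((2 : ℤ) ^ (n + 2)))) (h4 : s ^ ((2 : ℤ) ^ (n + 2)) ≠ 𝐳) : Odd j := by
  refine Int.not_even_iff_odd.1 fun ⟨u, hu⟩ => h4 (h.eq_z_of_cent h3 fun r hr =>
    q_cent h.mc (Commute.zpow_left h1 _).eq (mul_inv_eq_iff_eq_mul.1 ?_).symm hr)
  rw [← conj_zpow, h2, (Commute.zpow_right h1 j).symm.mul_zpow, ← zpow_mul,
    h.mc.zpow_eq_one_iff.2 ⟨u, by rw [hu]; ring⟩, one_mul]

theorem Hy.exists_ca (h : Hy F R a b n) (H : ∃ t, F.IsConjElt 𝐳 t ∧ t ≠ 𝐳 ∧ a * t = t * a) :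
    ∃ x σ, CA F R a b n x σ := by
  obtain ⟨t₀, ⟨h1, h2, h3⟩, hmax⟩ := Set.exists_max_image {t | F.IsConjElt 𝐳 t ∧ t ≠ 𝐳 ∧ a * t = t * a}
    (fun t => Nat.card (Cn S t)) (Set.toFinite _) H
  obtain ⟨φ, h4, h5⟩ := h.ext h1
  have a0 : a ∈ Cn S t₀ := mem_Cn.2 ⟨h.a_mem, h3⟩
  have z0 := h.z_mem_Cn (h.cj_inv h1).1
  have t0 := h.self_mem h1
  obtain ⟨s, hs⟩ : ∃ s, φ a = s := ⟨_, rfl⟩
  have sS : s ∈ S := hs ▸ h4.mem a0
  have sk : ∀ k : ℤ, φ (a ^ k) = s ^ k := fun k => by rw [h4.homOn.map_zpow a0, hs]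
  have h6 := cj_mor h.cj_z h4 z0
  have h7 := h.ext_ne h1 h2 h4 h5
  rw [sk] at h6 h7
  obtain ⟨e, j, h8⟩ := h.ac sS
  have h9 : a * s ^ ((2 : ℤ) ^ (n + 2)) = s ^ ((2 : ℤ) ^ (n + 2)) * a := by
    have := (Commute.pow_left (q_pow_comm h.mc h8.1) 2).eq
    rw [← pow_mul, ← pow_succ, ← zpow_natCast] at this
    exact_mod_cast this.symm
  set t := s ^ ((2 : ℤ) ^ (n + 2)) with ht
  have hi : im φ (Cn S t₀) = Cn S t := h4.im_eq_of_card_le (fun g hg => by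
    rw [ht, ← sk]; exact Mor.mem_Cn h4 z0 hg (h.z_comm hg.1)) (hmax t ⟨h6, h7, h9⟩)
  obtain ⟨ψ, e1, e2, e3, -⟩ := h4.inv
  rw [hi] at e1 e3
  have aU : a ∈ Cn S t := mem_Cn.2 ⟨h.a_mem, h9⟩
  have hb : ∀ {u}, a ∈ Cn S u → ∀ g ∈ Cn S u, b * g * b⁻¹ ∈ Cn S u := fun ha g hg => by
    obtain ⟨e, j, h1⟩ := h.ac hg.1
    exact h1.cb ▸ mul_mem (zpow_mem ha _) hg
  have hσ : Mor F (Cn S t) fun g => φ (b * ψ g * b⁻¹) :=
    (e1.comp (mor_conj F le_rfl h.b_mem) fun _ => e1.mem).comp h4 fun g hg => hb a0 _ (e3 g hg).1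
  have sg : ∀ g ∈ Cn S t, ∀ e j, Ac a b (ψ g) e j → φ (b * ψ g * b⁻¹) = s ^ (-j) * g :=
    fun g hg e j h1 => by rw [h1.cb, h4.homOn.map_mul (zpow_mem a0 _) (e3 g hg).1, sk, (e3 g hg).2]
  have ss : ∀ k : ℤ, φ (b * ψ (s ^ k) * b⁻¹) = s ^ (-k) := fun k => by
    rw [← sk, e2 _ (zpow_mem a0 k), q_b_conj h.mc, sk]
  have dj : ∀ y ∈ R, y ∈ zpowers s → y = 1 := by
    rintro _ hy ⟨k, rfl⟩
    by_contra e
    obtain ⟨l, l1, l2⟩ := exists_inv_of_ne h.sat.pg (h.le hy) e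
    have l3 := h.mc.quat_eq_z (pow_mem hy _) l1 l2
    simp only [← zpow_natCast, ← zpow_mul] at l1 l2 l3
    rw [← sk] at l1 l2 l3
    rw [← h4.homOn.map_mul (zpow_mem a0 _) (zpow_mem a0 _)] at l2
    rw [h.mc.eq_z (zpow_mem (mem_zpowers a) _) (fun e => l1 (by rw [e, h4.homOn.map_one])) (h4.injOn (mul_mem (zpow_mem a0 _)
      (zpow_mem a0 _)) (one_mem _) (l2.trans h4.homOn.map_one.symm)), sk] at l3
    exact h7 l3
  obtain ⟨e', j', f1⟩ := h.ac (e1.mem aU)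
  have f2 : a * s * a⁻¹ = s ^ e' := by
    rw [← sk, ← f1.1, h4.homOn.map_conj (e3 a aU).1 a0, (e3 a aU).2, hs]
  have f3 : a * s = s * a := by
    rw [← mul_inv_eq_one, mul_inv_rev]
    refine dj _ ?_ (by rw [← mul_assoc, f2]; exact mul_mem (zpow_mem (mem_zpowers s) _) (inv_mem (mem_zpowers s)))
    rw [show a * s * (a⁻¹ * s⁻¹) = a * (s * a * s⁻¹)⁻¹ by group, h8.1]
    exact mul_mem h.mc.a_mem (inv_mem (h.mc.zpow_mem _))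
  have sU : s ∈ Cn S t := hi ▸ hs ▸ mem_im_of_mem φ a0
  have f4 : ψ a * a = a * ψ a := by
    nth_rw 2 3 [← e2 a a0]
    rw [hs, ← e1.homOn.map_mul aU sU, f3, e1.homOn.map_mul sU aU]
  have f5 : ψ a ^ ((2 : ℤ) ^ (n + 2)) = t₀ := by rw [← e1.homOn.map_zpow aU, ← h5, e2 _ t0]
  have oj : Odd j := by simpa using h.odd_of f3.symm h8.cb h6 h7
  have oj' : Odd j' := by simpa using h.odd_of f4 f1.cb (f5 ▸ h1) (f5 ▸ h2)
  have tt := (h.cj_inv h6).2.1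
  have sa := sg a aU _ _ f1
  have cs : ∀ k l : ℤ, a ^ k * s ^ l = s ^ l * a ^ k := fun k l => (Commute.zpow_zpow f3 k l).eq
  have sak : ∀ k : ℤ, φ (b * ψ (a ^ k) * b⁻¹) = s ^ (-j' * k) * a ^ k := fun k => by
    have := hσ.homOn.map_zpow aU k
    rwa [sa, (Commute.zpow_left f3.symm _).mul_zpow, ← zpow_mul] at this
  have bs : ∀ k : ℤ, b * s ^ k * b⁻¹ = a ^ (-j * k) * s ^ k := fun k => by
    rw [← conj_zpow, h8.cb, (Commute.zpow_left f3 _).mul_zpow, ← zpow_mul]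
  have f6 : ∀ k : ℤ, φ (b * ψ (b * s ^ k * b⁻¹) * b⁻¹) = a ^ (-j * k) * s ^ ((j * j' - 1) * k) :=
    fun k => by
      rw [bs, hσ.homOn.map_mul (zpow_mem aU _) (zpow_mem sU _), sak, ss, ← cs, mul_assoc, ← zpow_add]
      congr 2; ring
  have f7 := h.fix_mem ((h4.comp (mor_conj F le_rfl h.b_mem) fun _ => h4.mem).comp hσ
    fun g hg => hb aU _ (hi ▸ mem_im_of_mem φ hg)) z0 (by
      simp only [sk, f6]
      rw [mul_comm (-j), zpow_mul, zpow_odd_of_mul_self h.mc.z_mul_self oj.neg, mul_comm (_ - _), zpow_mul,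
        ← ht]
      obtain ⟨u, hu⟩ := (oj.mul oj').sub_odd odd_one
      rw [hu, ← two_mul, zpow_mul, zpow_two, tt, one_zpow, mul_one]) a0 h.mc.a_mem
  have f8 := f6 1
  simp only [zpow_one, mul_one] at f8
  simp only [hs, f8] at f7
  have f9 := dj _ ((mul_mem_cancel_left (h.mc.zpow_mem _)).1 f7) ⟨_, rfl⟩
  have f10 : s ^ (j * j') = s := by rwa [zpow_sub, zpow_one, mul_inv_eq_one] at f9
  have f11 : a ^ (j * j') = a := h4.injOn (zpow_mem a0 _) a0 (by rw [sk, f10, hs])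
  have f12 : (s ^ (-j')) ^ (-j) = s := by rw [← zpow_mul, neg_mul_neg, mul_comm, f10]
  have f13 : (s ^ (-j')) ^ ((2 : ℤ) ^ (n + 2)) = t := by
    rw [← zpow_mul, mul_comm, zpow_mul, zpow_odd_of_mul_self tt oj'.neg]
  have f14 : zpowers (s ^ (-j')) = zpowers s :=
    le_antisymm (zpowers_le.2 ⟨_, rfl⟩) (zpowers_le.2 ⟨_, f12⟩)
  refine ⟨s ^ (-j'), fun g => φ (b * ψ g * b⁻¹), h, zpow_mem sS _, ?_, by simpa using cs 1 (-j'),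
    by rwa [f14], by rw [bs, neg_mul_neg, f11], f13 ▸ hσ, by simpa [sa] using (cs 1 (-j')).symm,
    (ss _).trans (zpow_neg _ _), f13 ▸ fun g hg => ?_⟩
  · rw [← Nat.card_zpowers, f14, ← hs, ← h4.homOn.im_zpowers a0, (h4.mono (zpowers_le.2 a0)).card_im,
      Nat.card_zpowers, h.mc.ord]
  · obtain ⟨e, k, h1⟩ := h.ac (e1.mem hg)
    exact ⟨-j * -k, by simp only [sg g hg _ _ h1]; rw [zpow_mul, f12]⟩

namespace CA
variable (h : CA F R a b n x σ)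
include h

local notation "𝐔" => Cn S 𝐭

theorem x_eq_one_iff : x ^ p = 1 ↔ (2 : ℤ) ^ (n + 3) ∣ p := by
  rw [PGroup.zpow_eq_one_iff_of_orderOf h.ord]; push_cast; rfl

theorem mul (p q r s : ℤ) : we a x p q * we a x r s = we a x (p + r) (q + s) := by
  have : x ^ q * a ^ r = a ^ r * x ^ q := (Commute.zpow_zpow h.comm r q).eq.symm
  simp only [we, zpow_add, mul_assoc]
  rw [← mul_assoc (x ^ q), this, mul_assoc]

theorem inv (p q : ℤ) : (we a x p q)⁻¹ = we a x (-p) (-q) := by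
  rw [inv_eq_iff_mul_eq_one, h.mul]; simp [we]

theorem zpow (p q k : ℤ) : we a x p q ^ k = we a x (p * k) (q * k) := by
  rw [we, we, (Commute.zpow_zpow h.comm p q).mul_zpow, ← zpow_mul, ← zpow_mul]

theorem eq_one_iff : we a x p q = 1 ↔ (2 : ℤ) ^ (n + 3) ∣ p ∧ (2 : ℤ) ^ (n + 3) ∣ q := by
  rw [← h.mc.zpow_eq_one_iff, ← h.x_eq_one_iff, we]
  refine ⟨fun e => ?_, fun e => by rw [e.1, e.2, one_mul]⟩
  have := h.disj (x ^ q) (eq_inv_of_mul_eq_one_right e ▸ inv_mem (h.mc.zpow_mem p)) ⟨q, rfl⟩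
  exact ⟨by rwa [this, mul_one] at e, this⟩

theorem eq_iff {r s : ℤ} :
    we a x p q = we a x r s ↔ (2 : ℤ) ^ (n + 3) ∣ p - r ∧ (2 : ℤ) ^ (n + 3) ∣ q - s := by
  rw [← h.eq_one_iff, ← mul_inv_eq_one, h.inv, h.mul, sub_eq_add_neg, sub_eq_add_neg]

theorem eq_of {r s : ℤ} (k l : ℤ) (e1 : p - r = 2 ^ (n + 3) * k) (e2 : q - s = 2 ^ (n + 3) * l) :
    we a x p q = we a x r s := h.eq_iff.2 ⟨⟨k, e1⟩, ⟨l, e2⟩⟩

omit h in
theorem we_a (k : ℤ) : a ^ k = we a x k 0 := by simp [we]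
omit h in
theorem we_x' (k : ℤ) : x ^ k = we a x 0 k := by simp [we]

theorem we_comm (p q r s : ℤ) : we a x p q * we a x r s = we a x r s * we a x p q := by
  rw [h.mul, h.mul, add_comm p, add_comm q]

theorem we_U (p q : ℤ) : we a x p q ∈ 𝐔 :=
  mem_Cn.2 ⟨mul_mem (zpow_mem h.a_mem _) (zpow_mem h.xS _), by rw [we_x' (a := a), h.we_comm]⟩

theorem a_U : a ∈ 𝐔 := by simpa [we] using h.we_U 1 0
theorem x_U : x ∈ 𝐔 := by simpa [we] using h.we_U 0 1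

theorem b_we (p q : ℤ) : b * we a x p q * b⁻¹ = we a x (q - p) q := by
  rw [we, ← conj_mul, q_b_conj h.mc, ← conj_zpow, h.bx, (Commute.mul_zpow h.comm), we]; group

theorem s_we (p q : ℤ) : σ (we a x p q) = we a x p (p - q) := by
  rw [we, h.mor.homOn.map_mul (zpow_mem h.a_U _) (zpow_mem h.x_U _), h.mor.homOn.map_zpow h.a_U,
    h.mor.homOn.map_zpow h.x_U, h.sa, h.sx, (Commute.mul_zpow h.comm), we]; group

theorem s_U (hg : g ∈ 𝐔) : σ g ∈ 𝐔 := by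
  obtain ⟨k, e⟩ := h.sg g hg
  exact e ▸ mul_mem (zpow_mem h.x_U _) hg

theorem b_U (hg : g ∈ 𝐔) : b * g * b⁻¹ ∈ 𝐔 := by
  obtain ⟨e, j, h1⟩ := h.ac hg.1
  exact h1.cb ▸ mul_mem (zpow_mem h.a_U _) hg

theorem t_mem : 𝐭 ∈ S := zpow_mem h.xS _

theorem tt : 𝐭 * 𝐭 = 1 := by rw [← zpow_add, h.x_eq_one_iff]; exact ⟨1, by ring⟩

theorem not_dvd : ¬ (2 : ℤ) ^ (n + 3) ∣ 2 ^ (n + 2) := fun e => h.mc.z_ne_one (h.mc.zpow_eq_one_iff.2 e)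

theorem t_not : 𝐭 ∉ R := fun e => h.not_dvd (h.x_eq_one_iff.1 (h.disj _ e ⟨_, rfl⟩))

theorem b_t : b * 𝐭 * b⁻¹ = 𝐳 * 𝐭 := by rw [we_x' (a := a), h.b_we]; simp [we]

theorem b_zt : b * (𝐳 * 𝐭) * b⁻¹ = 𝐭 := by
  rw [← conj_mul, h.b_t, h.z_comm h.b_mem, mul_inv_cancel_right, ← mul_assoc, h.mc.z_mul_self, one_mul]

theorem s_z : σ 𝐳 = 𝐳 * 𝐭 := by rw [we_a (x := x), h.s_we]; simp [we]

theorem s_zt : σ (𝐳 * 𝐭) = 𝐳 := by simpa [we] using h.s_we (2 ^ (n + 2)) (2 ^ (n + 2))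

theorem conj_we (hg : g ∈ 𝐔) (he : g * a * g⁻¹ = a ^ e) (p q : ℤ) :
    g * we a x p q * g⁻¹ = we a x (e * p) (e * q) := by
  obtain ⟨k, h1⟩ := h.sg g hg
  have h2 := h.mor.homOn.map_conj hg h.a_U
  rw [he, we_a (x := x), h.s_we, h1, h.sa, show x ^ k * g * (a * x) * (x ^ k * g)⁻¹ =
    x ^ k * (g * a * g⁻¹ * (g * x * g⁻¹)) * (x ^ k)⁻¹ by group, he, eq_mul_inv_iff_mul_eq, we_x' (a := a),
    h.we_comm, mul_right_inj, we, mul_right_inj, sub_zero] at h2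
  rw [we, ← conj_mul, ← conj_zpow, ← conj_zpow, he, ← h2, ← zpow_mul, ← zpow_mul, we]

theorem exists_fix (hg : g ∈ 𝐔) :
    ∃ p q, b * (we a x p q * g) * b⁻¹ = we a x p q * g ∧ σ (we a x p q * g) = we a x p q * g := by
  obtain ⟨e, j, h1⟩ := h.ac hg.1
  obtain ⟨k, h2⟩ := h.sg g hg
  obtain ⟨u, v, h3⟩ : IsCoprime ((2 : ℤ) ^ (n + 3)) 3 := (Int.isCoprime_two_left.2 (by decide)).pow_left
  refine ⟨v * (k - 2 * j), 2 * (v * (k - 2 * j)) + j, ?_, ?_⟩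
  · rw [← conj_mul, h1.cb, h.b_we, ← mul_assoc, we_a (x := x), h.mul]
    congr 2 <;> ring
  · rw [h.mor.homOn.map_mul (h.we_U _ _) hg, h2, h.s_we, ← mul_assoc, we_x' (a := a), h.mul, mul_left_inj]
    exact h.eq_of 0 (u * (k - 2 * j)) (by ring) (by linear_combination (-(k - 2 * j)) * h3)

theorem eq_one (hf : f ∈ 𝐔) (h1 : f * a = a * f) (h2 : b * f * b⁻¹ = f) (h3 : σ f = f) : f = 1 := by
  by_contra e
  obtain ⟨k, h4, h5⟩ := exists_inv_of_ne h.sat.pg hf.1 e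
  have := h.sc _ (pow_mem hf.1 _) (fun r hr => (Commute.pow_right
    (q_cent h.mc h1 (mul_inv_eq_iff_eq_mul.1 h2).symm hr) _).eq) h5 h4 _ _ h.mor (pow_mem hf _)
    (by rw [h.mor.homOn.map_pow hf, h3]) _ (zpow_mem h.a_U _) (h.mc.zpow_mem ((2 : ℤ) ^ (n + 2)))
  rw [h.s_z] at this
  exact h.t_not ((mul_mem_cancel_left (h.mc.zpow_mem _)).1 this)

theorem we_comm_a (p q : ℤ) : we a x p q * a = a * we a x p q := by
  simpa [we] using h.we_comm p q 1 0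

theorem mem_A (hg : g ∈ 𝐔) (h1 : g * a = a * g) : ∃ p q, g = we a x p q := by
  obtain ⟨p, q, h2, h3⟩ := h.exists_fix hg
  have := h.eq_one (mul_mem (h.we_U p q) hg) (by rw [mul_assoc, h1, ← mul_assoc, h.we_comm_a, mul_assoc])
    h2 h3
  exact ⟨_, _, (eq_inv_of_mul_eq_one_right this).trans (h.inv p q)⟩

theorem mem_c (hg : g ∈ 𝐔) (h1 : g * a = a * g) (h2 : g * b = b * g) : ∃ p : ℤ, g = we a x 1 2 ^ p := by
  obtain ⟨p, q, rfl⟩ := h.mem_A hg h1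
  obtain ⟨k, hk⟩ := (h.eq_iff.1 ((h.b_we p q).symm.trans (mul_inv_eq_iff_eq_mul.2 h2.symm))).1
  exact ⟨p, by rw [h.zpow]; exact h.eq_of 0 k (by ring) (by linear_combination hk)⟩

theorem b_c : b * we a x 1 2 * b⁻¹ = we a x 1 2 := by rw [h.b_we]; norm_num

theorem inv_A (h1 : we a x p q ≠ 1) (h2 : we a x p q * we a x p q = 1) :
    we a x p q = 𝐳 ∨ we a x p q = 𝐭 ∨ we a x p q = 𝐳 * 𝐭 := by
  rw [h.mul, h.eq_one_iff] at h2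
  have key : ∀ r : ℤ, (2 : ℤ) ^ (n + 3) ∣ r + r →
      (2 : ℤ) ^ (n + 3) ∣ r - 0 ∨ (2 : ℤ) ^ (n + 3) ∣ r - 2 ^ (n + 2) := fun r ⟨k, hk⟩ => by
    obtain ⟨l, rfl | rfl⟩ := Int.even_or_odd' k
    · exact .inl ⟨l, by linarith [hk]⟩
    · exact .inr ⟨l, by rw [pow_succ 2 (n + 2)] at hk ⊢; linarith [hk]⟩
  rcases key p h2.1 with e1 | e1 <;> rcases key q h2.2 with e2 | e2
  · exact absurd ((h.eq_iff.2 ⟨e1, e2⟩).trans (we_zero a x)) h1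
  · exact .inr (.inl ((h.eq_iff.2 ⟨e1, e2⟩).trans (we_x' _).symm))
  · exact .inl ((h.eq_iff.2 ⟨e1, e2⟩).trans (we_a _).symm)
  · exact .inr (.inr (h.eq_iff.2 ⟨e1, e2⟩))

theorem cases_S (hg : g ∈ S) : g ∈ 𝐔 ∨ g * b⁻¹ ∈ 𝐔 := by
  have zz := h.mc.z_mul_self
  have cz : ∀ {g}, g ∈ S → g * (𝐳 * 𝐭) * g⁻¹ = 𝐳 * (g * 𝐭 * g⁻¹) := fun hg => by
    rw [← mul_assoc, h.z_comm hg]; group
  have zz' : ∀ g, 𝐳 * (𝐳 * g) = g := fun g => by rw [← mul_assoc, zz, one_mul]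
  have cm : ∀ g k : Ω, g * k * 𝐭 * (g * k)⁻¹ = g * (k * 𝐭 * k⁻¹) * g⁻¹ := fun g k => by group
  let N : Subgroup Ω :=
    { carrier := {g | g ∈ S ∧ (g * 𝐭 * g⁻¹ = 𝐭 ∨ g * 𝐭 * g⁻¹ = 𝐳 * 𝐭)}
      mul_mem' := fun {g k} hg hk => ⟨mul_mem hg.1 hk.1, by
        rcases hg.2 with e | e <;> rcases hk.2 with e' | e' <;>
          simp only [cm, e', cz hg.1, e, zz', true_or, or_true]⟩
      one_mem' := ⟨one_mem _, .inl (by group)⟩
      inv_mem' := fun {g} hg => ⟨inv_mem hg.1, hg.2.imp (fun e => by nth_rw 1 [← e]; group) fun e => by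
        have := cz (inv_mem hg.1)
        rw [← e, show g⁻¹ * (g * 𝐭 * g⁻¹) * g⁻¹⁻¹ = 𝐭 by group] at this
        nth_rw 2 [this]
        rw [← mul_assoc 𝐳, zz, one_mul]⟩ }
  have hU : ∀ {g}, g ∈ S → g * 𝐭 * g⁻¹ = 𝐭 → g ∈ 𝐔 := fun hg e =>
    mem_Cn.2 ⟨hg, mul_inv_eq_iff_eq_mul.1 e⟩
  suffices N = S from (this.ge hg).2.imp (hU hg) fun e => hU (mul_mem hg (inv_mem h.b_mem)) (by
    rw [cm, ← h.b_zt, show b⁻¹ * (b * (𝐳 * 𝐭) * b⁻¹) * b⁻¹⁻¹ = 𝐳 * 𝐭 by group, h.b_zt, cz hg, e,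
      ← mul_assoc, zz, one_mul])
  by_contra hne
  obtain ⟨k, hk, hkN⟩ := SetLike.exists_of_lt (lt_normalizerIn h.sat.pg
    (lt_of_le_of_ne (a := N) (fun _ hg => hg.1) hne))
  have h1 : k * we a x 1 2 * k⁻¹ ∈ N := conj_mem_of_mem_normalizer hk.2
    ⟨(h.we_U 1 2).1, .inl (mul_inv_eq_iff_eq_mul.2 (mem_Cn.1 (h.we_U 1 2)).2)⟩
  have h2 : k * we a x 1 2 * k⁻¹ ∈ centralizer (R : Set Ω) := conj_mem_of_mem_normalizer
    (normalizer_le_normalizer_centralizer' R (h.norm hk.1)) fun r hr =>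
      q_cent h.mc (h.we_comm_a 1 2) (mul_inv_eq_iff_eq_mul.1 h.b_c).symm hr
  set d := k * we a x 1 2 * k⁻¹ with hd
  obtain ⟨p, hp⟩ := h.mem_c (g := d * d) (hU (mul_mem h1.1 h1.1) (by
    rcases h1.2 with e | e <;> simp only [cm, e, cz h1.1, zz']))
    (mul_mem h2 h2 a h.mc.a_mem).symm (mul_mem h2 h2 b h.mc.b_mem).symm
  have h3 : k * (𝐢 * 𝐭) * k⁻¹ = we a x (p * 2 ^ n) (2 * p * 2 ^ n) := by
    calc _ = k * (we a x 1 2 * we a x 1 2) ^ ((2 : ℤ) ^ n) * k⁻¹ := by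
          rw [h.mul, h.zpow, we]; congr 4 <;> ring
      _ = _ := by rw [← conj_zpow, ← conj_mul, hp, h.zpow, h.zpow, one_mul]
  have h4 : k * (𝐢 * 𝐭 * (𝐢 * 𝐭)) * k⁻¹ = 𝐳 := by
    rw [show 𝐢 * 𝐭 * (𝐢 * 𝐭) = 𝐳 from (h.mul _ _ _ _).trans
      ((h.eq_of 0 1 (by ring) (by ring)).trans (we_a _).symm), h.z_comm hk.1, mul_inv_cancel_right]
  rw [← conj_mul, h3, h.mul, we_a (x := x), h.eq_iff] at h4
  obtain ⟨l, hl⟩ := h4.1
  have h5 : p * 2 ^ n = 2 ^ (n + 1) + 2 ^ (n + 2) * l := by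
    rw [pow_succ 2 (n + 2), pow_succ 2 (n + 1)] at hl; rw [pow_succ 2 (n + 1)]; linarith
  have h6 : k * 𝐭 * k⁻¹ = (k * 𝐢 * k⁻¹)⁻¹ * we a x (p * 2 ^ n) (2 * p * 2 ^ n) := by rw [← h3]; group
  have h7 : ∀ r : ℤ, we a x (2 ^ (n + 2) * r) (2 * p * 2 ^ n) = 𝐭 ∨
      we a x (2 ^ (n + 2) * r) (2 * p * 2 ^ n) = 𝐳 * 𝐭 := fun r => by
    obtain ⟨u, rfl | rfl⟩ := Int.even_or_odd' r
    · exact .inl ((h.eq_of u l (by ring) (by linear_combination 2 * h5)).trans (we_x' _).symm)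
    · exact .inr (h.eq_of u l (by ring) (by linear_combination 2 * h5))
  refine hkN ⟨hk.1, ?_⟩
  rw [h6]
  rcases q_conj_i h.mc (h.norm hk.1) with e | e
  · rw [e, ← zpow_neg, we_a (x := x), h.mul, zero_add, show -2 ^ (n + 1) + p * 2 ^ n = 2 ^ (n + 2) * l by
      rw [h5]; ring]
    exact h7 l
  · rw [e, inv_inv, we_a (x := x), h.mul, zero_add,
      show 2 ^ (n + 1) + p * 2 ^ n = 2 ^ (n + 2) * (l + 1) by rw [h5]; ring]
    exact h7 _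

theorem sq_U (hg : g ∈ S) : g * g ∈ 𝐔 := by
  rcases h.cases_S hg with e | e
  · exact mul_mem e e
  · rw [show g * g = g * b⁻¹ * (b * (g * b⁻¹) * b⁻¹) * (b * b) by group, q_bb h.mc]
    exact mul_mem (mul_mem e (h.b_U e)) (zpow_mem h.a_U _)

theorem pow_mem_A (hg : g ∈ S) : ∃ p q, g ^ 2 ^ (n + 1) = we a x p q := by
  obtain ⟨e, -, h1, -⟩ := h.ac hg
  exact h.mem_A (by rw [pow_succ' (2 : ℕ), pow_mul, sq]; exact pow_mem (h.sq_U hg) _) (q_pow_comm h.mc h1)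

end CA

end Cfsg.Lib.QW
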