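import Cfsg.Agent.Lib.QW.Basic

/-!
# All conjugates of `z` have type `Dt`: the group is quasi-dihedral
-/

set_option autoImplicit false
set_option linter.unusedSectionVars false

namespace Cfsg.Lib.QW

open Subgroup Cfsg.Lib.Fusion Cfsg.Lib.Transfer Cfsg.Lib.Rk2
open Cfsg.FusionSystem hiding inv_mem
open Cfsg.Lib.Inv hiding conj_mem_of_mem_normalizer
open scoped IsMulCommutative

variable {Ω : Type*} [Group Ω] [Finite Ω] {S R : Subgroup Ω} {F : FusionSystem S} {σ : Ω → Ω}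
  {a b c f g t : Ω} {n : ℕ} {j : ℤ}

local notation "𝐳" => a ^ ((2 : ℤ) ^ (n + 2))
local notation "𝐢" => a ^ ((2 : ℤ) ^ (n + 1))

theorem Hy.i_conj (h : Hy F R a b n) (hg : g ∈ S) : 𝐢 * g * 𝐢⁻¹ = g ∨ 𝐢 * g * 𝐢⁻¹ = 𝐳 * g := by
  refine (q_conj_i h.mc (h.norm hg)).imp (fun e => ?_) fun e => ?_
  · rw [← mul_inv_eq_iff_eq_mul.1 e, mul_inv_cancel_right]
  · calc _ = 𝐢 * (g * 𝐢 * g⁻¹)⁻¹ * g := by group
      _ = _ := by rw [e, inv_inv, h.mc.w_mul_self]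

/-- The data of case B. -/
structure CB (F : FusionSystem S) (R : Subgroup Ω) (a b : Ω) (n : ℕ) (t : Ω) (j : ℤ) (σ : Ω → Ω) :
    Prop extends Hy F R a b n where
  dt : ∀ s, F.IsConjElt (a ^ ((2 : ℤ) ^ (n + 2))) s → s ≠ a ^ ((2 : ℤ) ^ (n + 2)) → Dt a b s
  cj : F.IsConjElt (a ^ ((2 : ℤ) ^ (n + 2))) t
  ne : t ≠ a ^ ((2 : ℤ) ^ (n + 2))
  act : Ac a b t (-1) j
  odd : Odd j
  mor : Mor F (Cn S t) σ
  sg : ∀ g ∈ Cn S t, σ g = g ∨ σ g = t * g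
  sz : σ (a ^ ((2 : ℤ) ^ (n + 2))) = t * a ^ ((2 : ℤ) ^ (n + 2))

theorem Hy.exists_cb (h : Hy F R a b n) (H : ∀ t, F.IsConjElt 𝐳 t → t ≠ 𝐳 → Dt a b t) :
    ∃ t j σ, CB F R a b n t j σ := by
  obtain ⟨t, h1, h2⟩ := h.mv
  obtain ⟨h3, j, hj, h4⟩ := H t h1 h2
  obtain ⟨φ, h5, h6⟩ := h.ext h1
  obtain ⟨ψ, h7, h8, -⟩ := h5.inv
  have ht := h.self_mem h1
  have hz := h.z_mem_Cn ht.1
  have key : ∀ g ∈ Cn S t, 𝐢 * φ g * 𝐢⁻¹ = φ g ∨ 𝐢 * φ g * 𝐢⁻¹ = φ (t * g) := fun g hg => by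
    rw [h5.homOn.map_mul ht hg, h6]; exact h.i_conj (h5.mem hg)
  refine ⟨t, j, fun g => ψ (𝐢 * φ g * 𝐢⁻¹), h, H, h1, h2, ⟨by simpa using h3, h4⟩, hj,
    (h5.comp (mor_conj F le_rfl (zpow_mem h.a_mem _)) fun _ => h5.mem).comp h7 fun g hg => ?_,
    fun g hg => (key g hg).imp (fun e => by simp only [e, h8 g hg])
      fun e => by simp only [e, h8 _ (mul_mem ht hg)], ?_⟩
  · rcases key g hg with e | e <;> simp only [e]
    exacts [mem_im_of_mem φ hg, mem_im_of_mem φ (mul_mem ht hg)]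
  · rcases key _ hz with e | e
    · exact absurd (mul_inv_eq_iff_eq_mul.1 e) ((H _ (cj_mor h.cj_z h5 hz) (h.ext_ne h1 h2 h5 h6)).not_comm
        h.mc (h.mc.zpow_mem _) h.mc.w_mul_self)
    · simp only [e, h8 _ (mul_mem ht hz)]

namespace CB
variable (h : CB F R a b n t j σ)
include h

local notation "𝐄" => Fx (Mor.homOn (CB.mor h)) ⊓ centralizer {𝐢}
local notation "𝐏" => R ⊔ zpowers t

theorem t_mem : t ∈ S := (h.cj_inv h.cj).1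
theorem tt : t * t = 1 := (h.cj_inv h.cj).2.1
theorem t_U : t ∈ Cn S t := h.self_mem h.cj
theorem z_U : 𝐳 ∈ Cn S t := h.z_mem_Cn h.t_mem
theorem t_not : t ∉ R := fun e => h.ne (h.mc.quat_eq_z e (h.cj_inv h.cj).2.2 h.tt)

theorem st : σ t = t := (h.sg t h.t_U).resolve_right fun e => (h.cj_inv h.cj).2.2
  (h.mor.injOn h.t_U (one_mem _) (by rw [e, h.tt, h.mor.homOn.map_one]))

theorem t_conj (k : ℤ) : t * a ^ k * t⁻¹ = a ^ (-k) := by rw [h.act.zpow, neg_one_mul]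

theorem i_ne : 𝐢⁻¹ ≠ 𝐢 := fun e => h.mc.w_sq_ne (by nth_rw 1 [← e]; simp)

theorem i_t : 𝐢 * t * 𝐢⁻¹ = 𝐳 * t := (h.i_conj h.t_mem).resolve_left fun e => h.i_ne (by
  rw [← zpow_neg, ← h.t_conj, ← mul_inv_eq_iff_eq_mul.1 e, mul_inv_cancel_right])

theorem mem_E : f ∈ 𝐄 ↔ (f ∈ Cn S t ∧ σ f = f) ∧ f * 𝐢 = 𝐢 * f :=
  and_congr_right fun _ => mem_centralizer_singleton_iff

theorem exists_z (hg : g ∈ Cn S t) (hi : g * 𝐢 = 𝐢 * g) : g ∈ 𝐄 ∨ 𝐳 * g ∈ 𝐄 := by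
  refine (h.sg g hg).imp (fun e => h.mem_E.2 ⟨⟨hg, e⟩, hi⟩) fun e =>
    h.mem_E.2 ⟨⟨mul_mem h.z_U hg, ?_⟩, ?_⟩
  · rw [h.mor.homOn.map_mul h.z_U hg, h.sz, e, h.z_comm h.t_mem, mul_assoc, ← mul_assoc t, h.tt,
      one_mul]
  · rw [mul_assoc, hi, ← mul_assoc, ← mul_assoc, h.z_comm (zpow_mem h.a_mem _)]

theorem exists_E (hg : g ∈ Cn S t) : ∃ p ∈ 𝐏, p * g ∈ 𝐄 := by
  have hz : 𝐳 ∈ 𝐏 := mem_sup_left (h.mc.zpow_mem _)
  have ht : t ∈ 𝐏 := mem_sup_right (mem_zpowers t)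
  rcases h.i_conj hg.1 with e | e
  · rcases h.exists_z hg (mul_inv_eq_iff_eq_mul.1 e).symm with e' | e'
    exacts [⟨1, one_mem _, by rwa [one_mul]⟩, ⟨_, hz, e'⟩]
  · have : t * g * 𝐢 = 𝐢 * (t * g) := by
      rw [eq_comm, ← mul_inv_eq_iff_eq_mul, ← conj_mul, h.i_t, e, ← h.z_comm h.t_mem, mul_assoc,
        ← mul_assoc 𝐳, h.mc.z_mul_self, one_mul]
    rcases h.exists_z (mul_mem h.t_U hg) this with e' | e'
    exacts [⟨_, ht, e'⟩, ⟨_, mul_mem hz ht, by rwa [mul_assoc]⟩]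

theorem eq_one (hf : f ∈ 𝐄) (h1 : f * a = a * f) (h2 : f * b = b * f) : f = 1 := by
  by_contra e
  obtain ⟨k, h3, h4⟩ := exists_inv_of_ne h.sat.pg hf.1.1.1 e
  have h5 := (pow_mem hf (2 ^ k)).1
  have := h.sc _ h5.1.1 (fun r hr => ((Commute.pow_right (q_cent h.mc h1 h2 hr) _).eq)) h4 h3 _ _
    h.mor h5.1 h5.2 _ h.z_U (h.mc.zpow_mem _)
  rw [h.sz] at this
  exact h.t_not ((mul_mem_cancel_right (h.mc.zpow_mem _)).1 this)

theorem cu (hc : c ∈ Cn S t) (h1 : c * a = a * c) (h2 : c * b = b * c) : c = 1 ∨ c = 𝐳 := by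
  refine (h.exists_z hc (Commute.zpow_right h1 _).eq).imp (fun e => h.eq_one e h1 h2) fun e => ?_
  have := h.eq_one e (by rw [mul_assoc, h1, ← mul_assoc, ← mul_assoc, h.z_comm h.a_mem])
    (by rw [mul_assoc, h2, ← mul_assoc, ← mul_assoc, h.z_comm h.b_mem])
  rw [eq_inv_of_mul_eq_one_right this, inv_eq_of_mul_self h.mc.z_mul_self]

theorem not_cj (h1 : g * a = a * g) (h2 : g * b ≠ b * g) : ¬ F.IsConjElt 𝐳 g := fun e => by
  have := (h.dt g e fun e' => h2 (e' ▸ (h.z_comm h.b_mem).symm)).1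
  rw [h1, mul_inv_cancel_right] at this
  exact q_a_ne_inv h.mc 1 odd_one (by simpa using this)

theorem not_cj_four (hc : c ∈ S) (h1 : c * a = a * c) (h2 : c * b = b * c) (h3 : c * c = 𝐳)
    (h4 : t * c * t⁻¹ = c⁻¹) : ¬ F.IsConjElt 𝐳 (t * c) := fun e => by
  have hi : c * 𝐢 = 𝐢 * c := (Commute.zpow_right h1 _).eq
  have iS : 𝐢 ∈ S := zpow_mem h.a_mem _
  have e1 := cj_conj e (mul_mem h.t_mem hc) (zpow_mem h.a_mem (-2 ^ n))
  rw [show a ^ (-(2 : ℤ) ^ n) * (t * c) * (a ^ (-(2 : ℤ) ^ n))⁻¹ = t * (𝐢 * c) by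
    rw [mul_assoc, mul_assoc, ← zpow_neg, (Commute.zpow_right h1 _).eq, ← mul_assoc,
      ← mul_assoc, zpow_mul_of_inv (by simpa using h.act.1), mul_assoc t, ← zpow_add, mul_assoc]
    congr 3; ring] at e1
  have hU : 𝐢 * c ∈ Cn S t := mem_Cn.2 ⟨mul_mem iS hc, by
    rw [eq_comm, ← mul_inv_eq_iff_eq_mul, ← conj_mul, h4, h.t_conj, zpow_neg, ← mul_inv_rev, hi,
      inv_eq_iff_mul_eq_one, mul_assoc, ← mul_assoc c, hi, mul_assoc, h3, ← mul_assoc, h.mc.w_mul_self,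
      h.mc.z_mul_self]⟩
  have ha : 𝐢 * c * a = a * (𝐢 * c) := by rw [mul_assoc, h1]; group
  have hb : 𝐢 * c * b ≠ b * (𝐢 * c) := fun e => h.i_ne (by
    rw [mul_assoc, h2, ← mul_assoc, ← mul_assoc, mul_left_inj] at e
    rw [← zpow_neg, ← q_b_conj h.mc, ← e, mul_inv_cancel_right])
  rcases h.sg _ hU with e2 | e2
  · have e3 := cj_conj e1 (mul_mem h.t_mem hU.1) iS
    rw [← conj_mul, h.i_t, show 𝐢 * (𝐢 * c) * 𝐢⁻¹ = 𝐢 * c by
      rw [mul_assoc, ← hi, mul_inv_cancel_right, hi]] at e3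
    have e4 := cj_mor e3 h.mor (mul_mem (mul_mem h.z_U h.t_U) hU)
    rw [h.mor.homOn.map_mul (mul_mem h.z_U h.t_U) hU, h.mor.homOn.map_mul h.z_U h.t_U, h.sz, h.st, e2,
      h.z_comm h.t_mem, mul_assoc 𝐳, h.tt, mul_one] at e4
    refine h.not_cj ?_ (fun e => hb ?_) e4
    · rw [mul_assoc, ha, ← mul_assoc, ← h.z_comm h.a_mem, mul_assoc]
    · rwa [mul_assoc, ← mul_assoc b, h.z_comm h.b_mem, mul_assoc 𝐳, mul_right_inj] at e
  · have e4 := cj_mor e1 h.mor (mul_mem h.t_U hU)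
    rw [h.mor.homOn.map_mul h.t_U hU, h.st, e2, ← mul_assoc, h.tt, one_mul] at e4
    exact h.not_cj ha hb e4

theorem of_cj (hc : c ∈ S) (h1 : c * a = a * c) (h2 : c * b = b * c) (e : F.IsConjElt 𝐳 (t * c)) :
    c = 1 ∨ c = 𝐳 := by
  have h4 : t * c * t⁻¹ = c⁻¹ := by
    rw [eq_inv_iff_mul_eq_one, inv_eq_of_mul_self h.tt, mul_assoc, (h.cj_inv e).2.1]
  refine or_iff_not_imp_left.2 fun e1 => ?_
  obtain ⟨k, h5, h6⟩ := exists_inv_of_ne h.sat.pg hc e1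
  have h7 : ∀ l, c ^ l * a = a * c ^ l := fun l => (Commute.pow_left h1 l).eq
  have h8 : ∀ l, c ^ l * b = b * c ^ l := fun l => (Commute.pow_left h2 l).eq
  have h9 := (h.cu (mem_Cn.2 ⟨pow_mem hc _, (commute_of_inv_of_pow_mul_self h4 _ h6).eq⟩) (h7 _)
    (h8 _)).resolve_left h5
  rcases k with _ | k
  · simpa using h9
  refine absurd ?_ (h.not_cj_four (pow_mem hc (2 ^ k)) (h7 _) (h8 _)
    (by rw [← h9, ← pow_add, pow_succ 2, mul_two]) (conj_pow_of_inv h4 _))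
  rcases k with _ | k
  · simpa using e
  have := cj_conj h.cj h.t_mem (inv_mem (pow_mem hc (2 ^ k)))
  rwa [inv_inv, ← conj_pow_of_inv h4, inv_mul_cancel_right, mul_assoc, ← pow_add, ← mul_two,
    ← pow_succ] at this

theorem conj_refl (k : ℤ) : ∃ r ∈ R, r * t * r⁻¹ = a ^ k * t := by
  have key : ∀ l m : ℤ, a ^ l * (a ^ m * t) * (a ^ l)⁻¹ = a ^ (2 * l + m) * t := fun l m => by
    rw [mul_assoc, mul_assoc, ← zpow_neg, mul_zpow_of_inv (by simpa using h.act.1)]; group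
  obtain ⟨u, hu⟩ := h.odd
  obtain ⟨l, rfl | rfl⟩ := Int.even_or_odd' k
  · exact ⟨_, h.mc.zpow_mem l, by simpa using key l 0⟩
  · refine ⟨_, h.mc.refl_mem (l + u + 1), ?_⟩
    calc _ = a ^ (l + u + 1) * (b * t * b⁻¹) * (a ^ (l + u + 1))⁻¹ := by group
      _ = _ := by rw [h.act.cb, key, hu]; congr 2; ring

theorem conj_t (hg : g ∈ S) : ∃ r ∈ R, r * t * r⁻¹ = g * t * g⁻¹ := by
  have h1 := cj_conj h.cj h.t_mem hg
  obtain ⟨h2, j', ⟨v, hv⟩, h3⟩ := h.dt _ h1 fun e => h.ne (by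
    rw [mul_inv_eq_iff_eq_mul, ← h.z_comm hg] at e; exact mul_left_cancel e)
  obtain ⟨u, hu⟩ := h.odd
  obtain ⟨h4, h5⟩ := ((q_ac_a h.mc (v - u)).mul h.act).comm_of
    (⟨by simpa using h2, h3⟩ : Ac a b _ (-1) j') (by simp) (by congr 1; rw [hu, hv]; ring)
  set c := (a ^ (v - u) * t)⁻¹ * (g * t * g⁻¹) with hc
  have cS : c ∈ S := mul_mem (inv_mem (mul_mem (zpow_mem h.a_mem _) h.t_mem)) (h.cj_inv h1).1
  obtain ⟨r, hr, h6⟩ := h.conj_refl (v - u)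
  have h7 : g * t * g⁻¹ = r * (t * c) * r⁻¹ := by
    rw [← conj_mul, h6, q_cent h.mc h4 h5 hr, hc]; group
  have h8 := cj_conj h1 (h.cj_inv h1).1 (inv_mem (h.le hr))
  rw [h7, show r⁻¹ * (r * (t * c) * r⁻¹) * r⁻¹⁻¹ = t * c by group] at h8
  rcases h.of_cj cS h4 h5 h8 with e | e
  · exact ⟨r, hr, by rw [h7, e, mul_one]⟩
  · exact ⟨r * 𝐢, mul_mem hr (h.mc.zpow_mem _), by rw [h7, e, h.z_comm h.t_mem, ← h.i_t]; group⟩

theorem exists_PE (hg : g ∈ S) : ∃ p ∈ 𝐏, p * g ∈ 𝐄 := by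
  obtain ⟨r, hr, e⟩ := h.conj_t hg
  obtain ⟨p, hp, e'⟩ := h.exists_E (g := r⁻¹ * g) (mem_Cn.2 ⟨mul_mem (inv_mem (h.le hr)) hg, by
    rw [← mul_inv_eq_iff_eq_mul]
    calc _ = r⁻¹ * (g * t * g⁻¹) * r := by group
      _ = _ := by rw [← e]; group⟩)
  exact ⟨p * r⁻¹, mul_mem hp (mem_sup_left (inv_mem hr)), by rwa [mul_assoc]⟩

theorem P_le : 𝐏 ≤ S := sup_le h.le (zpowers_le.2 h.t_mem)

theorem norm_P : S ≤ normalizer ((𝐏 : Subgroup Ω) : Set Ω) := fun g hg =>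
  mem_normalizer_of_conj_le (by
    obtain ⟨r, hr, e⟩ := h.conj_t hg
    rw [conj_sup, conj_eq_self_iff.2 (h.norm hg), conj_zpowers, ← e]
    exact sup_le le_sup_left (zpowers_le.2 (conj_mem_of_mem_normalizer
      (le_normalizer (mem_sup_left hr)) (mem_sup_right (mem_zpowers t)))))

theorem mem_P (hg : g ∈ 𝐏) : ∃ r ∈ R, g = r ∨ g = r * t := by
  obtain ⟨r, hr, y, hy, rfl⟩ := exists_mul_of_mem_sup (zpowers_le.2 (h.norm h.t_mem)) hg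
  rcases mem_zp_of_mul_self h.tt hy with rfl | rfl
  exacts [⟨r, hr, .inl (mul_one r)⟩, ⟨r, hr, .inr rfl⟩]

theorem inf_PE (hg : g ∈ 𝐏) (hf : g ∈ 𝐄) : g = 1 := by
  obtain ⟨⟨h1, h2⟩, h3⟩ := h.mem_E.1 hf
  have key : ∀ r ∈ R, r * t = t * r → r = 1 ∨ r = 𝐳 := fun r hr e => by
    replace e := mul_inv_eq_iff_eq_mul.2 e.symm
    obtain ⟨k, rfl | rfl⟩ := h.mc.mem_iff.1 hr
    · rw [h.t_conj, zpow_neg, inv_eq_iff_mul_eq_one] at e
      exact or_iff_not_imp_left.2 fun e' => h.mc.eq_z ⟨k, rfl⟩ e' e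
    · rw [h.act.refl, mul_left_inj, h.mc.zpow_eq_iff] at e
      have := (dvd_pow_self (2 : ℤ) (by omega : n + 2 + 1 ≠ 0)).trans e
      obtain ⟨l, hl⟩ := h.odd
      omega
  have ti : t * 𝐢 ≠ 𝐢 * t := fun e => h.i_ne (by rw [← zpow_neg, ← h.t_conj, e, mul_inv_cancel_right])
  obtain ⟨r, hr, rfl | rfl⟩ := h.mem_P hg
  · refine (key _ hr (mem_Cn.1 h1).2).resolve_right ?_
    rintro rfl
    exact (h.cj_inv h.cj).2.2 (mul_eq_right.1 (h.sz.symm.trans h2))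
  · rcases key r hr (mul_right_cancel ((mem_Cn.1 h1).2.trans (mul_assoc _ _ _).symm)) with rfl | rfl
    · exact absurd (by simpa using h3) ti
    · rw [mul_assoc, ← mul_assoc 𝐢, h.z_comm (zpow_mem h.a_mem _), mul_assoc, mul_right_inj] at h3
      exact absurd h3 ti

theorem cj_of_P (hg : g ∈ 𝐏) (h1 : g ≠ 1) (h2 : g * g = 1) : F.IsConjElt 𝐳 g := by
  obtain ⟨r, hr, rfl | rfl⟩ := h.mem_P hg
  · exact h.mc.quat_eq_z hr h1 h2 ▸ h.cj_z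
  obtain ⟨k, rfl | rfl⟩ := h.mc.mem_iff.1 hr
  · obtain ⟨r, hr, e⟩ := h.conj_refl k
    exact e ▸ cj_conj h.cj h.t_mem (h.le hr)
  · rw [show a ^ k * b * t * (a ^ k * b * t) = a ^ k * b * (t * (a ^ k * b) * t⁻¹) * (t * t) by group,
      h.tt, mul_one, h.act.refl, h.mc.refl_mul_refl, h.mc.zpow_eq_one_iff] at h2
    have := (dvd_pow_self (2 : ℤ) (by omega : n + 2 + 1 ≠ 0)).trans h2
    obtain ⟨l, hl⟩ := h.odd
    have : (2 : ℤ) ^ (n + 2) = 2 * 2 ^ (n + 1) := by ring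
    omega

theorem ac_E (hf : f ∈ 𝐄) : ∃ u j', Ac a b f (4 * u + 1) j' ∧ (2 : ℤ) ^ (n + 3) ∣ 4 * u * j + 2 * j' := by
  obtain ⟨⟨h1, -⟩, h3⟩ := h.mem_E.1 hf
  obtain ⟨e, j', he⟩ := h.ac h1.1
  have h4 := he.zpow (2 ^ (n + 1))
  rw [h3, mul_inv_cancel_right, eq_comm, h.mc.zpow_eq_iff] at h4
  obtain ⟨u, hu⟩ : 4 ∣ e - 1 := (mul_dvd_mul_iff_left (by positivity : (2 : ℤ) ^ (n + 1) ≠ 0)).1 (by
    rwa [show (2 : ℤ) ^ (n + 1) * 4 = 2 ^ (n + 2 + 1) by ring, mul_sub, mul_one, mul_comm])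
  obtain rfl : e = 4 * u + 1 := by omega
  have h5 := (he.mul h.act).2
  rw [(mem_Cn.1 h1).2, (h.act.mul he).2, mul_left_inj, eq_comm, h.mc.zpow_eq_iff] at h5
  exact ⟨u, j', he, by rwa [show 4 * u * j + 2 * j' = (4 * u + 1) * j + j' - (-1 * j' + j) by ring]⟩

theorem E_comm (hf : f ∈ 𝐄) (hg : g ∈ 𝐄) : f * g = g * f := by
  obtain ⟨u, k, h1, c, h2⟩ := h.ac_E hf
  obtain ⟨v, l, h3, d, h4⟩ := h.ac_E hg
  obtain ⟨h5, h6⟩ := (h1.mul h3).comm_of (h3.mul h1) (by rw [mul_comm])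
    (h.mc.zpow_eq_of (2 * u * d - 2 * v * c) (by linear_combination 2 * u * h4 - 2 * v * h2))
  exact inv_mul_eq_one.1 (h.eq_one (mul_mem (inv_mem (mul_mem hf hg)) (mul_mem hg hf)) h5 h6)

theorem ac_inv (hf : f ∈ 𝐄) (h1 : f ≠ 1) (h2 : f * f = 1) : Ac a b f 1 (2 ^ (n + 2)) := by
  obtain ⟨u, k, h3, h4⟩ := h.ac_E hf
  have h5 := (h3.mul h3).2
  rw [h2, one_mul, inv_one, mul_one, right_eq_mul, h.mc.zpow_eq_one_iff] at h5
  have h6 : (2 : ℤ) ^ (n + 3) ∣ 2 * k := dvd_of_dvd_mul_odd (v := 2 * u + 1) ⟨u, rfl⟩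
    (by rwa [show 2 * k * (2 * u + 1) = (4 * u + 1) * k + k by ring])
  have h7 : f * a * f⁻¹ = a ^ (1 : ℤ) := h3.1.trans (h.mc.zpow_eq_iff.2 (by
    simpa using dvd_of_dvd_mul_odd h.odd ((dvd_add_left h6).1 h4)))
  refine ⟨h7, h3.2.trans (congrArg (· * b) (h.mc.eq_z ⟨k, rfl⟩ (fun e => h1 (h.eq_one hf ?_ ?_)) ?_))⟩
  · simpa [mul_inv_eq_iff_eq_mul] using h7
  · simpa [mul_inv_eq_iff_eq_mul, e] using h3.2
  · rwa [← zpow_add, h.mc.zpow_eq_one_iff, ← two_mul]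

theorem E_eq_one (hf : f ∈ 𝐄) : f = 1 := by
  by_contra e
  obtain ⟨k, h1, h2⟩ := exists_inv_of_ne h.sat.pg hf.1.1.1 e
  have h3 := pow_mem hf (2 ^ k)
  generalize f ^ 2 ^ k = u at h1 h2 h3
  have : ((𝐏).subgroupOf S).Normal := (normal_subgroupOf_iff_le_normalizer h.P_le).2 h.norm_P
  let l := QuotientGroup.mk' ((𝐏).subgroupOf S)
  have hl : ∀ g : S, ∃ f : S, f.1 ∈ 𝐄 ∧ l g = l f := fun g => by
    obtain ⟨p, hp, e⟩ := h.exists_PE g.2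
    exact ⟨⟨p, h.P_le hp⟩ * g, e, by rw [map_mul, show l ⟨p, _⟩ = 1 from (QuotientGroup.eq_one_iff _).2 hp,
      one_mul]⟩
  have l1 : ∀ f : S, f.1 ∈ 𝐄 → l f = 1 → f = 1 := fun f hf e =>
    Subtype.ext (h.inf_PE ((QuotientGroup.eq_one_iff f).1 e) hf)
  have : IsMulCommutative (S ⧸ (𝐏).subgroupOf S) := ⟨⟨fun x y => by
    obtain ⟨x, rfl⟩ := QuotientGroup.mk'_surjective _ x
    obtain ⟨y, rfl⟩ := QuotientGroup.mk'_surjective _ y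
    obtain ⟨x', h1, h2⟩ := hl x
    obtain ⟨y', h3, h4⟩ := hl y
    change l x * l y = l y * l x
    rw [h2, h4, ← map_mul, ← map_mul, show x' * y' = y' * x' from Subtype.ext (h.E_comm h1 h3)]⟩⟩
  let U : S := ⟨u, h3.1.1.1⟩
  have hU : U * U = 1 := Subtype.ext h2
  have au := h.ac_inv h3 h1 h2
  refine h1 (congrArg Subtype.val (l1 U h3 (h.sat.eq_one_of_stable l (z := U) (h.foc U.2)
    ⟨1, by rw [pow_one, sq, ← map_mul, hU, map_one]⟩ fun k y hy => ?_)))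
  obtain ⟨φ, h4, h5⟩ := isConjElt_iff.1 hy
  rw [← map_pow]
  rcases mem_zp_of_mul_self hU (pow_mem (mem_zpowers U) k) with e | e
  · rw [show U.1 ^ k = 1 from congrArg Subtype.val e, h4.homOn.map_one] at h5
    rw [e, show y = 1 from Subtype.ext h5.symm]
  rw [show U.1 ^ k = u from congrArg Subtype.val e] at h4 h5 hy
  have h6 : y * y = 1 := Subtype.ext (by
    rw [coe_mul, ← h5, ← h4.homOn.map_mul (mem_zpowers u) (mem_zpowers u), h2, h4.homOn.map_one]; rfl)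
  obtain ⟨f, h7, h8⟩ := hl y
  have h9 := l1 _ (mul_mem h7 h7) (by rw [map_mul, ← h8, ← map_mul, h6, map_one])
  by_cases f1 : f = 1
  · rw [f1, map_one] at h8
    have := h.cj_of_P ((QuotientGroup.eq_one_iff y).1 h8) (fun e => h1 (h4.injOn (mem_zpowers u)
      (one_mem _) (h5.trans (e.trans h4.homOn.map_one.symm)))) (congrArg Subtype.val h6)
    obtain ⟨ψ, h10, h11⟩ := isConjElt_iff.1 (cj_symm hy)
    refine absurd (h11 ▸ cj_mor this h10 (mem_zpowers _)) (h.not_cj ?_ fun e => h.mc.z_ne_one ?_)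
    · simpa [mul_inv_eq_iff_eq_mul] using au.1
    · simpa [e] using au.2.symm
  · obtain ⟨h10, h11⟩ := au.comm_of (h.ac_inv h7 (fun e => f1 (Subtype.ext e)) (congrArg Subtype.val h9))
      rfl rfl
    rw [e, h8, show U = f from Subtype.ext (inv_mul_eq_one.1 (h.eq_one (mul_mem (inv_mem h3) h7) h10 h11))]

theorem main : IsQuasiDihedral S ∧ Nat.card S = 2 ^ (n + 5) := by
  have h1 : 𝐏 = S := le_antisymm h.P_le fun g hg => by
    obtain ⟨p, hp, e⟩ := h.exists_PE hg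
    rw [eq_inv_of_mul_eq_one_right (h.E_eq_one e)]
    exact inv_mem hp
  have h2 : Nat.card S = 2 ^ (n + 5) := by
    rw [← card_mul_relIndex h.le, ← h1, PGroup.relIndex_sup_zpowers (p := 2) (h.norm h.t_mem) h.t_not
      (by rw [sq, h.tt]; exact one_mem _), h.mc.card_eq]
    ring
  obtain ⟨u, hu⟩ := h.odd
  have h3 : (b * t) ^ 2 = a ^ (2 ^ (n + 2) - j) := by
    calc _ = b * (t * b * t⁻¹) * (t * t) := by rw [sq]; group
      _ = b * a ^ j * b⁻¹ * (b * b) := by rw [h.act.2, h.tt]; group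
      _ = _ := by rw [q_b_conj h.mc, q_bb h.mc]; group
  have h4 : (b * t) ^ 2 ^ (n + 3) = 𝐳 := by
    rw [pow_succ', pow_mul, h3, ← zpow_natCast, ← zpow_mul]
    exact h.mc.zpow_eq_of (2 ^ (n + 1) - u - 1) (by rw [hu]; push_cast; ring)
  refine ⟨⟨n + 4, by omega, h2, ⟨b * t, mul_mem h.b_mem h.t_mem⟩, ⟨t, h.t_mem⟩, ?_, ?_,
    Subtype.ext ?_⟩, h2⟩
  · rw [← Subgroup.orderOf_coe]
    exact orderOf_eq_prime_pow (h4 ▸ h.mc.z_ne_one) (by rw [pow_succ, pow_mul, h4, sq, h.mc.z_mul_self])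
  · rw [← Subgroup.orderOf_coe]
    exact orderOf_eq_two_iff.2 ⟨(h.cj_inv h.cj).2.2, h.tt⟩
  · change t * (b * t) * t⁻¹ = (b * t) ^ (2 ^ (n + 3) - 1)
    rw [← mul_left_inj (b * t), ← pow_succ, Nat.sub_add_cancel Nat.one_le_two_pow, h4]
    calc _ = t * (b * b) * t := by group
      _ = _ := by rw [q_bb h.mc, h.z_comm h.t_mem, mul_assoc, h.tt, mul_one]

end CB

theorem Hy.caseB (h : Hy F R a b n) (H : ∀ t, F.IsConjElt 𝐳 t → t ≠ 𝐳 → Dt a b t) :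
    IsQuasiDihedral S ∧ Nat.card S = 2 ^ (n + 5) :=
  let ⟨_, _, _, h⟩ := h.exists_cb H
  h.main

end Cfsg.Lib.QW
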