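import Cfsg.Agent.Lib.Rk2.Amb
import Cfsg.Agent.Lib.Fusion.Cent

/-!
# Alperin's fusion theorem relative to strongly closed subgroups
-/

set_option autoImplicit false

namespace Cfsg.Lib.QW

open Subgroup Cfsg.Lib.Fusion Cfsg.Lib.Transfer Cfsg.Lib.Rk2
open Cfsg.FusionSystem hiding inv_mem
open scoped commutatorElement

variable {Ω : Type*} [Group Ω] {S P Q R : Subgroup Ω} {F : FusionSystem S} {f : Ω → Ω} {p : ℕ}

/-- If a strongly closed `R` is not contained in `P` then `Aut_F(P)` is generated by extendable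
automorphisms and `p'`-elements trivial modulo `R`. -/
theorem le_of_sc [Finite S] [Fact p.Prime] (hF : Sat F p) (hP : F.IsFullyNormalized P)
    (hR : F.StronglyClosed R) (hRP : ¬ R ≤ P) {H : Subgroup (MulAut P)} (h1 : extendable F P ≤ H)
    (h2 : ∀ α ∈ F.autGroup P, (orderOf α).Coprime p → (∀ x ∈ P, x⁻¹ * ext α x ∈ R) → α ∈ H) :
    F.autGroup P ≤ H := by
  have := finite_of_le hP.1
  have hSR := le_normalizer_of_stronglyClosed hR
  have hle : R ⊔ P ≤ S := sup_le hR.1 hP.1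
  have := finite_of_le hle
  have hlt : P < R ⊔ P := lt_of_le_not_ge le_sup_right fun e => hRP (le_sup_left.trans e)
  obtain ⟨g, hg, hgP⟩ := SetLike.exists_of_lt (lt_normalizerIn (hF.pg.to_le hle) hlt)
  obtain ⟨r, hr, y, hy, rfl⟩ := exists_mul_of_mem_sup (hP.1.trans hSR) hg.1
  have hrP : r ∉ P := fun e => hgP (mul_mem e hy)
  have hrn : r ∈ normalizer (P : Set Ω) := (mul_mem_cancel_right (le_normalizer hy)).1 hg.2
  have hPS : P < S := hP.1.lt_of_ne fun e => hRP (e ▸ hR.1)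
  let L := F.autGroup P ⊓ triv P P R
  have hLn : F.autGroup P ≤ normalizer (L : Set (MulAut P)) :=
    Core.le_normalizer_inf le_normalizer (le_normalizer_triv
      (fun α _ x hx => by simp [ext_mem α hx, hx]) (autGroup_le_stab hP.1 hR))
  let T := autInducedBy S P ⊓ L
  have hT : ¬ p ∣ T.relIndex L := by
    rw [inf_relIndex_right]
    exact not_dvd_relIndex_of_le_normalizer (hF.not_dvd hP) inf_le_left hLn
  have hTH : T ≤ H := inf_le_left.trans ((autInducedBy_le_extendable F hPS).trans h1)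
  have hLH : L ≤ H := fun α hα => by
    obtain ⟨β, hβ, γ, hγ, rfl⟩ := exists_opR_mul inf_le_right hT hα
    exact mul_mem ((opR_le_iff (A := L)).2 (fun δ hδ ho => h2 δ hδ.1 ho fun x hx => hδ.2.2 x hx hx) hβ)
      (hTH hγ)
  have hrT : cjA P r ∈ T := ⟨cjA_mem_autInducedBy (hR.1 hr), cjA_mem_autGroup F hP.1 (hR.1 hr),
    cjA_mem_triv hrn (le_normalizer hr) fun x hx _ =>
      comm_mem_right hr (hSR (inv_mem (hP.1 hx)))⟩
  intro α hα
  obtain ⟨l, hl, hn⟩ := frattini_argument inf_le_right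
    ((isPGroup_autInducedBy hF.pg P).to_le inf_le_left) hT hLn hα
  refine (mul_mem_cancel_left (hLH hl)).1 (h1 (mem_extendable_of_extr (hF.rec' hP)
    (mul_mem hl.1 hα) fun e => hrP (e (mem_extr_ext.2 ⟨⟨hR.1 hr, hrn⟩, ?_⟩))))
  exact (conj_mem_of_mem_normalizer hn hrT).1

/-- A class of maps of a fusion system closed under restriction, composition and cancellation. -/
structure Cl (F : FusionSystem S) (C : Subgroup Ω → (Ω → Ω) → Prop) : Prop where
  mono : ∀ P Q f g, Mor F Q g → C Q g → P ≤ Q → (∀ x ∈ P, f x = g x) → C P f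
  comp : ∀ P Q f g, Mor F P f → Mor F Q g → C P f → C Q g → (∀ x ∈ P, f x ∈ Q) →
    C P (fun x => g (f x))
  cancel : ∀ P Q f g, Mor F P f → Mor F Q g → (∀ x ∈ P, f x ∈ Q) → C Q g →
    C P (fun x => g (f x)) → C P f

theorem cl_mod (F : FusionSystem S) (K : Subgroup Ω) : Cl F fun P f => ∀ x ∈ P, x⁻¹ * f x ∈ K :=
  ⟨fun _ _ _ _ _ h1 h2 h3 x hx => h3 x hx ▸ h1 x (h2 hx), fun _ _ _ _ _ _ h1 h2 h3 x hx => by
    simpa [mul_assoc] using mul_mem (h1 x hx) (h2 _ (h3 x hx)),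
    fun _ _ _ _ _ _ h1 h2 h3 x hx => by
      simpa [mul_assoc] using mul_mem (h3 x hx) (inv_mem (h2 _ (h1 x hx)))⟩

theorem cl_mor (F E : FusionSystem S) : Cl F (Mor E) :=
  ⟨fun _ _ _ _ _ h1 h2 h3 => (h1.mono h2).congr h3, fun _ _ _ _ _ _ => Mor.comp,
    fun _ _ _ _ _ _ h1 h2 h3 => by
      obtain ⟨k, hk, e, -, -⟩ := h2.inv
      exact (h3.comp hk fun x hx => mem_im_of_mem _ (h1 x hx)).congr fun x hx => (e _ (h1 x hx)).symm⟩

theorem aft_sc [Finite Ω] (hU : Univ S) (hF : Sat F 2) {R₁ R₂ : Subgroup Ω}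
    (h1 : F.StronglyClosed R₁) (h2 : F.StronglyClosed R₂) {C : Subgroup Ω → (Ω → Ω) → Prop}
    (mono : ∀ P Q f g, Mor F Q g → C Q g → P ≤ Q → (∀ x ∈ P, f x = g x) → C P f)
    (comp : ∀ P Q f g, Mor F P f → Mor F Q g → C P f → C Q g → (∀ x ∈ P, f x ∈ Q) →
      C P (fun x => g (f x)))
    (cj : ∀ s ∈ S, C S fun x => s * x * s⁻¹)
    (step : ∀ (P : Subgroup Ω) g, Mor F P (fun x => g * x * g⁻¹) → g ∈ normalizer (P : Set Ω) →
      Odd (orderOf g) → ((R₁ ≤ P ∧ R₂ ≤ P) ∨ (∀ x ∈ P, x⁻¹ * (g * x * g⁻¹) ∈ R₁) ∨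
        ∀ x ∈ P, x⁻¹ * (g * x * g⁻¹) ∈ R₂) → C P fun x => g * x * g⁻¹)
    (hf : Mor F P f) : C P f := by
  refine hF.aft mono comp (fun P hP ih => ?_) hf
  have hn := (hF.fcr_of_essential hP).1
  have cj' : ∀ s ∈ normalizerIn S P, C P (ext (cjA P s)) := fun s hs =>
    mono _ _ _ _ (mor_conj F le_rfl hs.1) (cj s hs.1) hn.1 fun x hx => ext_cjA hs.2 hx
  have ml : ∀ α ∈ F.autGroup P, ∀ β ∈ F.autGroup P, C P (ext α) → C P (ext β) →
      C P (ext (α * β)) := fun α ha β hb h1 h2 =>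
    have ha' := mor_ext hn.1 ha
    have hb' := mor_ext hn.1 hb
    mono _ _ _ _ (hb'.comp ha' fun x => ext_mem β)
      (comp _ _ _ _ hb' ha' h2 h1 fun x => ext_mem β) le_rfl fun x _ => ext_mul α β x
  have on : C P (ext 1) := cjA_one (P := P) ▸ cj' 1 (one_mem _)
  let H : Subgroup (MulAut P) :=
    { carrier := {α | α ∈ F.autGroup P ∧ C P (ext α)}
      mul_mem' := fun ha hb => ⟨mul_mem ha.1 hb.1, ml _ ha.1 _ hb.1 ha.2 hb.2⟩
      one_mem' := ⟨one_mem _, on⟩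
      inv_mem' := fun {α} ha => ⟨inv_mem ha.1, by
        have key : ∀ k : ℕ, C P (ext (α ^ k)) := fun k => by
          induction k with
          | zero => simpa using on
          | succ k ih => exact pow_succ α k ▸ ml _ (pow_mem ha.1 k) _ ha.1 ih ha.2
        have : α⁻¹ = α ^ (orderOf α - 1) := inv_eq_of_mul_eq_one_left (by
          rw [← pow_succ, Nat.sub_add_cancel (orderOf_pos α), pow_orderOf_eq_one])
        exact this ▸ key _⟩ }
  have st : ∀ α ∈ F.autGroup P, (orderOf α).Coprime 2 → ((R₁ ≤ P ∧ R₂ ≤ P) ∨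
      (∀ x ∈ P, x⁻¹ * ext α x ∈ R₁) ∨ ∀ x ∈ P, x⁻¹ * ext α x ∈ R₂) → α ∈ H := fun α ha ho h => by
    obtain ⟨g, g1, g2, rfl⟩ := hU.exists_odd hn.1 ho
    have hm : Mor F P fun x => g * x * g⁻¹ := (mor_ext hn.1 ha).congr fun x hx => (ext_cjA g1 hx).symm
    exact ⟨ha, mono _ _ _ _ hm (step P g hm g1 g2 (h.imp_right (Or.imp
      (fun h x hx => ext_cjA g1 hx ▸ h x hx) fun h x hx => ext_cjA g1 hx ▸ h x hx))) le_rfl
      fun x hx => ext_cjA g1 hx⟩
  have ex : extendable F P ≤ H := (closure_le _).2 fun α ⟨Q, g, q1, q2, q3⟩ =>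
    ⟨extendable_le F P (q2.mem_extendable q1 q3),
      mono _ _ _ _ q2 (ih Q g (card_lt_of_lt q1) q2) q1.le fun x hx => (q3 x hx).symm⟩
  suffices F.autGroup P ≤ H from fun α ha => (this ha).2
  by_cases e1 : R₁ ≤ P
  · by_cases e2 : R₂ ≤ P
    · intro α ha
      obtain ⟨β, hβ, s, hs, rfl⟩ := hF.exists_opR_mul hn ha
      exact mul_mem (opR_le_iff.2 (fun γ h3 h4 => st γ h3 h4 (.inl ⟨e1, e2⟩)) hβ)
        ⟨cjA_mem_autGroup F hn.1 hs.1, cj' s hs⟩
    · exact le_of_sc hF hn h2 e2 ex fun α h3 h4 h5 => st α h3 h4 (.inr (.inr h5))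
  · exact le_of_sc hF hn h1 e1 ex fun α h3 h4 h5 => st α h3 h4 (.inr (.inl h5))

end Cfsg.Lib.QW
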