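import Cfsg.Agent.Lib.QW.Basic

/-!
# Saturated systems with a strongly closed generalized quaternion subgroup
-/

set_option autoImplicit false
set_option linter.unusedSectionVars false

namespace Cfsg.Lib.QW

open Subgroup Cfsg.Lib.Fusion Cfsg.Lib.Transfer Cfsg.Lib.Rk2
open Cfsg.FusionSystem hiding inv_mem
open Cfsg.Lib.Inv hiding conj_mem_of_mem_normalizer

variable {Ω : Type*} [Group Ω] [Finite Ω] {S P Q R K : Subgroup Ω} {D : FusionSystem S} {f : Ω → Ω}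
  {a b c g q x y : Ω} {n : ℕ}

local notation "𝐳" => a ^ ((2 : ℤ) ^ (n + 2))
local notation "𝐢" => a ^ ((2 : ℤ) ^ (n + 1))
local notation "Q8" Q:max => Nonempty (↥Q ≃* QuaternionGroup 2)

theorem eq_one_of_odd (hS : IsPGroup 2 S) (hq : q ∈ S) (h1 : g * y * g⁻¹ = y * q)
    (h2 : g * q * g⁻¹ = q) (ho : Odd (orderOf g)) : q = 1 := by
  have key : ∀ k : ℕ, g ^ k * y * (g ^ k)⁻¹ = y * q ^ k := fun k => by
    induction k with
    | zero => simp
    | succ k ih =>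
      calc _ = g * (g ^ k * y * (g ^ k)⁻¹) * g⁻¹ := by rw [pow_succ']; group
        _ = _ := by rw [ih, ← conj_mul, h1, ← conj_pow, h2, pow_succ', mul_assoc]
  have h3 := key (orderOf g)
  rw [pow_orderOf_eq_one, one_mul, inv_one, mul_one, left_eq_mul] at h3
  obtain ⟨k, hk⟩ := hS ⟨q, hq⟩
  exact orderOf_eq_one_iff.1 (Nat.eq_one_of_dvd_coprimes
    ((Nat.coprime_two_left.2 ho).pow_left k) (orderOf_dvd_of_pow_eq_one (congrArg Subtype.val hk))
    (orderOf_dvd_of_pow_eq_one h3))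

section MC
variable (h : MC R a b (n + 2) 0 1)
include h

theorem low_cases (hS : IsPGroup 2 S) (hP : P ≤ S) (hg : g ∈ normalizer (P : Set Ω))
    (ho : Odd (orderOf g)) (hl : ∀ y ∈ P, y⁻¹ * (g * y * g⁻¹) ∈ R) :
    (∀ y ∈ P, g * y * g⁻¹ = y) ∨ (Q8 (P ⊓ R) ∧ g ∈ normalizer ((P ⊓ R : Subgroup Ω) : Set Ω) ∧
      g ∉ centralizer ((P ⊓ R : Subgroup Ω) : Set Ω)) := by
  have h1 : g ∈ normalizer ((P ⊓ R : Subgroup Ω) : Set Ω) := mem_normalizer_of_conj_mem fun y hy =>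
    ⟨conj_mem_of_mem_normalizer hg hy.1, by simpa using mul_mem hy.2 (hl y hy.1)⟩
  by_cases h2 : g ∈ centralizer ((P ⊓ R : Subgroup Ω) : Set Ω)
  · refine .inl fun y hy => ?_
    have h3 := mul_mem (inv_mem hy) (conj_mem_of_mem_normalizer hg hy)
    exact (inv_mul_eq_one.1 (eq_one_of_odd hS (hP h3) (y := y) (by group)
      (conj_eq_of_mem_centralizer h2 ⟨h3, hl y hy⟩) ho)).symm
  · exact .inr ⟨(h.odd_aut inf_le_right h1 ho h2).resolve_left (h.quat_not_k4 inf_le_right), h1, h2⟩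

theorem cent_of_sc (hR : D.StronglyClosed R) (hm : Mor D P fun x => g * x * g⁻¹) (hP : R ≤ P)
    (ho : Odd (orderOf g)) : g ∈ centralizer (R : Set Ω) :=
  q_odd_cent h (mem_normalizer_of_conj_mem fun _ hr => hm.mem_of_stronglyClosed hR (hP hr) hr) ho

theorem comm_cent (hg : g ∈ centralizer (R : Set Ω)) (hy : y ∈ normalizer (R : Set Ω)) :
    y⁻¹ * (g * y * g⁻¹) ∈ centralizer (R : Set Ω) := by
  rw [show y⁻¹ * (g * y * g⁻¹) = y⁻¹ * g * y * g⁻¹ by group]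
  exact mul_mem (conj_mem_of_mem_normalizer' (normalizer_le_normalizer_centralizer' R hy) hg) (inv_mem hg)

/-- Invariance of the cosets of a subgroup containing `C_S(a)`. -/
theorem inv_gen (hU : Univ S) (hD : Sat D 2) (hR : D.StronglyClosed R)
    (hK : ∀ g ∈ S, g * a = a * g → g ∈ K)
    (hl : ∀ (P : Subgroup Ω) g, Mor D P (fun x => g * x * g⁻¹) → g ∈ normalizer (P : Set Ω) →
      Odd (orderOf g) → (∀ y ∈ P, y⁻¹ * (g * y * g⁻¹) ∈ R) → ∀ y ∈ P, y⁻¹ * (g * y * g⁻¹) ∈ K)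
    (hf : Mor D P f) : ∀ y ∈ P, y⁻¹ * f y ∈ K := by
  have hn := le_normalizer_of_stronglyClosed hR
  refine aft_sc hU hD hR hR (cl_mod D K).mono (cl_mod D K).comp (fun s hs y hy => ?_)
    (fun P g h1 h2 h3 h4 => ?_) hf
  · refine hK _ (mul_mem (inv_mem hy) (mul_mem (mul_mem hs hy) (inv_mem hs))) ?_
    obtain ⟨e, j, h1⟩ := exists_ac h (hn hy)
    obtain ⟨e', j', h2⟩ := exists_ac h (hn hs)
    obtain ⟨e'', j'', h3⟩ := exists_ac h (hn (inv_mem hs))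
    have h4 := ((h2.mul h3).mul h1).1
    rw [mul_inv_cancel, one_mul, h1.1] at h4
    exact (h1.comm_of' ((h2.mul h1).mul h3).1 (by rw [h4]; congr 1; ring))
  · rcases h4 with h4 | h4 | h4
    · exact fun y hy => hK _ (mul_mem (inv_mem (h1.le hy)) (h1.mem hy))
        (comm_cent h (cent_of_sc h hR h1 h4.1 h3) (hn (h1.le hy)) a h.a_mem).symm
    all_goals exact hl P g h1 h2 h3 h4

end MC

/-- `S` acts on the quaternion group `R` through a quasi-dihedral group. -/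
structure QS (S R : Subgroup Ω) (a b x : Ω) (n : ℕ) : Prop where
  mc : MC R a b (n + 2) 0 1
  le : R ≤ S
  norm : S ≤ normalizer (R : Set Ω)
  pm : ∀ g ∈ S, g * a * g⁻¹ = a ∨ g * a * g⁻¹ = a⁻¹
  xS : x ∈ S
  xa : x * a = a * x
  xb : x * b * x⁻¹ = a * b

namespace QS
variable (h : QS S R a b x n)
include h

theorem cent_q8 (hQ : Q ≤ R) (h8 : Q8 Q) : centralizerIn S Q = centralizerIn S R := by
  refine le_antisymm (fun g hg => ⟨hg.1, fun r hr => ?_⟩) (centralizerIn_anti S hQ)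
  obtain ⟨h1, k, h2, -⟩ := h.mc.q8_form hQ h8
  have h3 : g * a = a * g := mul_inv_eq_iff_eq_mul.1 ((h.pm g hg.1).resolve_right fun e => by
    have := conj_zpow_of_inv e ((2 : ℤ) ^ (n + 1))
    rw [← hg.2 _ h1, mul_inv_cancel_right, zpow_neg, eq_inv_iff_mul_eq_one] at this
    exact h.mc.w_sq_ne this)
  refine q_cent h.mc h3 (mul_left_cancel (a := a ^ k) ?_) hr
  rw [← mul_assoc, ← (Commute.zpow_right h3 k).eq, mul_assoc, ← hg.2 _ h2, mul_assoc]

theorem sc_cent (hU : Univ S) (hD : Sat D 2) (hR : D.StronglyClosed R) :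
    D.StronglyClosed (centralizerIn S R) := by
  refine stronglyClosed_iff.2 ⟨centralizerIn_le _ _, fun P f hf => aft_sc hU hD hR hR
    (C := fun P f => ∀ x ∈ P, x ∈ centralizerIn S R → f x ∈ centralizerIn S R)
    (fun _ _ _ _ _ h1 h2 h3 x hx => h3 x hx ▸ h1 x (h2 hx))
    (fun _ _ _ _ _ _ h1 h2 h3 x hx hc => h2 _ (h3 x hx) (h1 x hx hc))
    (fun s hs y hy hc => ⟨S.mul_mem (S.mul_mem hs hy) (S.inv_mem hs), conj_mem_of_mem_normalizer
      (normalizer_le_normalizer_centralizer' R (h.norm hs)) hc.2⟩)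
    (fun P g h1 h2 h3 h4 y hy hc => ?_) hf⟩
  rcases h4 with h4 | h4 | h4
  · have := cent_of_sc h.mc hR h1 h4.1 h3
    exact ⟨h1.mem hy, Subgroup.mul_mem _ (Subgroup.mul_mem _ this hc.2) (Subgroup.inv_mem _ this)⟩
  all_goals
    rcases low_cases h.mc hD.pg h1.le h2 h3 h4 with e | ⟨e1, e2, -⟩
    · simpa only [e y hy] using hc
    · rw [← h.cent_q8 inf_le_right e1] at hc ⊢
      exact ⟨h1.mem hy, conj_mem_of_mem_normalizer (normalizer_le_normalizer_centralizer' _ e2) hc.2⟩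

theorem inv_of_not_big (hU : Univ S) (hD : Sat D 2) (hR : D.StronglyClosed R)
    (hB : ∀ Q ≤ R, Q8 Q → ¬ Big D Q) (hf : Mor D P f) : ∀ y ∈ P, y⁻¹ * f y ∈ Cn S 𝐢 := by
  refine inv_gen h.mc hU hD hR (fun g hg e => mem_Cn.2 ⟨hg, (Commute.zpow_right e _).eq⟩)
    (fun P g h1 h2 h3 h4 y hy => ?_) hf
  rcases low_cases h.mc hD.pg h1.le h2 h3 h4 with e | ⟨e1, e2, e3⟩
  · rw [e y hy, inv_mul_cancel]; exact one_mem _
  · exact absurd ⟨_, (h1.mono inf_le_left).mem_autGroup_of_eq fun x hx => ext_cjA e2 hx,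
      (homOn_cjA _).coprime e2 (Nat.coprime_two_right.2 h3), fun e => e3 ((cjA_eq_one_iff e2).1 e)⟩
      (hB _ inf_le_right e1)

theorem x_conj (l : ℕ) (k : ℤ) : x ^ l * (a ^ k * b) * (x ^ l)⁻¹ = a ^ (k + l) * b := by
  have h1 : Ac a b x 1 1 := ⟨by simpa [mul_inv_eq_iff_eq_mul] using h.xa, by simpa using h.xb⟩
  induction l with
  | zero => simp
  | succ l ih =>
    calc _ = x * (x ^ l * (a ^ k * b) * (x ^ l)⁻¹) * x⁻¹ := by rw [pow_succ']; group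
      _ = _ := by rw [ih, h1.refl]; congr 2; push_cast; ring

theorem big_all {Q' : Subgroup Ω} (hQ : Q ≤ R) (h8 : Q8 Q) (hB : Big D Q) (hQ' : Q' ≤ R) (h8' : Q8 Q') :
    Big D Q' := by
  obtain ⟨h1, k, h2, h3⟩ := h.mc.q8_form hQ h8
  obtain ⟨h4, k', h5, h6⟩ := h.mc.q8_form hQ' h8'
  have hm : (0 : ℤ) < 2 ^ (n + 3) := by positivity
  obtain ⟨l, hl⟩ := Int.eq_ofNat_of_zero_le (Int.emod_nonneg (k' - k) hm.ne')
  have := hB.conj (pow_mem h.xS l)
  rwa [h.mc.q8_eq h8 h1 h2 h3, conj_sup, conj_zpowers, conj_zpowers, h.x_conj,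
    mul_inv_eq_iff_eq_mul.2 (Commute.zpow_right (Commute.pow_left h.xa l) _).eq,
    h.mc.zpow_eq_of (i := k + l) (j := k') (-((k' - k) / 2 ^ (n + 3))) (by
      rw [← hl]; linear_combination Int.emod_add_mul_ediv (k' - k) (2 ^ (n + 3))),
    ← h.mc.q8_eq h8' h4 h5 h6] at this

theorem fc_q8 (hR : D.StronglyClosed R) (hQ : Q ≤ R) (h8 : Q8 Q) : D.IsFullyCentralized Q := by
  refine ⟨hQ.trans h.le, fun Q' hc => ?_⟩
  obtain ⟨f, hf, rfl⟩ := isConj_iff.1 hc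
  obtain ⟨e, -⟩ := hf.homOn.exists_equiv hf.injOn rfl
  rw [h.cent_q8 hQ h8, h.cent_q8 (im_le_iff.2 fun x hx => hf.mem_of_stronglyClosed hR hx (hQ hx))
    ⟨e.symm.trans h8.some⟩]

theorem low_mor (hU : Univ S) (hD : Sat D 2) (hR : D.StronglyClosed R)
    (hB : ∀ Q ≤ R, Q8 Q → Big D Q)
    (hC : ∀ k ∈ normalizer ((centralizerIn S R : Subgroup Ω) : Set Ω), Odd (orderOf k) →
      k ∈ centralizer ((centralizerIn S R : Subgroup Ω) : Set Ω))
    (hP : P ≤ S) (hg : g ∈ normalizer (P : Set Ω)) (ho : Odd (orderOf g))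
    (hl : ∀ y ∈ P, y⁻¹ * (g * y * g⁻¹) ∈ R) : Mor D P fun y => g * y * g⁻¹ := by
  rcases low_cases h.mc hD.pg hP hg ho hl with e | ⟨h8, h1, h2⟩
  · exact (mor_id D hP).congr e
  set Q := P ⊓ R with hQ
  have QR : Q ≤ R := inf_le_right
  have QS := QR.trans h.le
  have hc := h.cent_q8 QR h8
  have co := (homOn_cjA Q).coprime h1 (Nat.coprime_two_right.2 ho)
  have h3 := mor_ext QS ((ou_q8 h8).mem hU (hB Q QR h8) co)
  obtain ⟨β, h4, h5⟩ := hD.exists_centric_ext h3 (by rw [im_ext]; exact h.fc_q8 hR QR h8)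
  have h6 : ∀ c ∈ centralizerIn S Q, β c ∈ centralizerIn S Q := fun c hc =>
    h4.mem_centralizerIn_of_im_eq le_sup_left ((im_congr h5).trans (im_ext _)) (mem_sup_right hc) hc.2
  obtain ⟨γ, h7, h8'⟩ := h4.exists_aut' (h4.homOn.mem_of_sup
    (fun y hy => mem_sup_left (h5 y hy ▸ ext_mem _ hy)) fun c hc => mem_sup_right (h6 c hc))
  obtain ⟨g₁, h9⟩ := hU _ h4.le γ
  obtain ⟨k, ⟨i, rfl⟩, k1, k2, k3⟩ := exists_odd_of_ext co (g := g₁) fun y hy => by
    rw [← h5 y hy, ← h8' y (mem_sup_left hy), h9 y (mem_sup_left hy)]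
  have n1 := mem_normalizer_of_ext h9
  have k4 : Mor D (Q ⊔ centralizerIn S Q) fun y => g₁ ^ i * y * (g₁ ^ i)⁻¹ :=
    (mor_ext h4.le (zpow_mem h7 i)).congr fun y hy => by
      rw [eq_cjA h9, ← (homOn_cjA _).map_zpow n1, ext_cjA (zpow_mem n1 i) hy]
  have k5 : g₁ ^ i ∈ centralizer ((centralizerIn S Q : Subgroup Ω) : Set Ω) :=
    hc ▸ hC _ (hc ▸ zpow_mem (mem_normalizer_of_conj_mem fun c hc => by
      rw [← h9 c (mem_sup_right hc), h8' c (mem_sup_right hc)]; exact h6 c hc) i) k2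
  obtain ⟨hi, -⟩ := h.mc.q8_form QR h8
  have key : ∀ y ∈ P, ∃ q ∈ Q, ∃ c ∈ centralizerIn S Q, y = q * c := fun y hy => by
    have hN : ∀ {y}, y ∈ P → ∀ {s u : Ω}, s ∈ normalizer (P : Set Ω) →
        (s * 𝐢 * s⁻¹ = u ∨ s * 𝐢 * s⁻¹ = u⁻¹) → y * u * y⁻¹ = u ∨ y * u * y⁻¹ = u⁻¹ :=
      fun {y} hy {s u} hs e => by
        have e1 : ∀ v, y * (s * v * s⁻¹) * y⁻¹ = s * (s⁻¹ * y * s * v * (s⁻¹ * y * s)⁻¹) * s⁻¹ :=
          fun v => by group
        have e2 := q_conj_i h.mc (h.norm (hP (conj_mem_of_mem_normalizer' hs hy)))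
        have e3 : y * (s * 𝐢 * s⁻¹) * y⁻¹ = s * 𝐢 * s⁻¹ ∨ y * (s * 𝐢 * s⁻¹) * y⁻¹ = (s * 𝐢 * s⁻¹)⁻¹ :=
          e2.imp (fun e => by rw [e1, e]) fun e => by rw [e1, e, conj_inv]
        rcases e with rfl | e
        · exact e3
        · rw [e, ← conj_inv, inv_inv, inv_inj, inv_eq_iff_eq_inv] at e3
          exact e3
    obtain ⟨q, hq, c, hc, rfl⟩ := exists_mul_of_mem_sup (centralizer_le_normalizer _)
      ((q8_mem_sup_iff h8 (g := y)).2 fun u hu => by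
        by_cases u2 : u * u = 1
        · by_cases u1 : u = 1
          · simp [u1]
          · rw [h.mc.quat_eq_z hu.2 u1 u2, q_conj_z h.mc (h.norm (hP hy))]; simp
        rcases q8_trans_of_odd h8 h1 ho h2 hi h.mc.w_sq_ne hu u2 with e | e | e
        · exact hN hy (one_mem _) (by simpa [eq_comm, inv_eq_iff_eq_inv] using e)
        · exact hN hy hg e
        · refine hN hy (inv_mem hg) (e.imp (fun e => ?_) fun e => ?_)
          · rw [← e]; group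
          · rw [← inv_inv 𝐢, ← e]; group)
    exact ⟨q, hq, c, ⟨(S.mul_mem_cancel_left (QS hq)).1 (hP hy), hc⟩, rfl⟩
  refine (k4.mono fun y hy => ?_).congr fun y hy => ?_ <;> obtain ⟨q, hq, c, hc', rfl⟩ := key y hy
  · exact mul_mem (mem_sup_left hq) (mem_sup_right hc')
  have cP := (P.mul_mem_cancel_left hq.1).1 hy
  have c1 : c⁻¹ * (g * c * g⁻¹) ∈ Q :=
    ⟨P.mul_mem (P.inv_mem cP) (conj_mem_of_mem_normalizer hg cP), hl c cP⟩
  have c2 : c⁻¹ * (g * c * g⁻¹) ∈ centralizer (Q : Set Ω) := mul_mem (inv_mem hc'.2)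
    (conj_mem_of_mem_normalizer (normalizer_le_normalizer_centralizer' _ h1) hc'.2)
  have c3 : c⁻¹ * (g * c * g⁻¹) = 1 := by
    generalize hw : c⁻¹ * (g * c * g⁻¹) = w at c1 c2
    obtain ⟨v, v1, v2⟩ := q8_exists_conj_inv h8 c1
    rw [c2 v v1, mul_inv_cancel_right, eq_inv_iff_mul_eq_one] at v2
    refine eq_one_of_odd hD.pg (QS c1) (y := c) (by rw [← hw]; group) ?_ ho
    by_cases w1 : w = 1
    · simp [w1]
    · rw [h.mc.quat_eq_z (conj_mem_of_mem_normalizer h1 c1).2 (conj_ne_one w1)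
        (by rw [conj_mul, v2]; simp), h.mc.quat_eq_z c1.2 w1 v2]
  rw [← conj_mul, ← conj_mul (b := g₁ ^ i), ← inv_mul_eq_one.1 c3, conj_eq_of_mem_centralizer k5 hc',
    ← ext_cjA h1 hq, ← k3, ext_cjA k1 hq]

end QS

end Cfsg.Lib.QW
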